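import Cfsg.Agent.LAE62.PClosed.Section
import Cfsg.Agent.LAE62.ExtClosed.CharFacts
import Cfsg.Agent.Brauer.RegElement
import Cfsg.Agent.BlkChar.PModular
import Cfsg.Agent.Char.Integrality

/-!
The class multiplication argument for an odd prime.
-/

set_option autoImplicit false

open Subgroup

namespace Cfsg.Agent.LAE62.PClosed

open Cfsg
open scoped ComplexConjugate

universe u

variable {G : Type u} [Group G] [Finite G] {H : Subgroup G} {p : ℕ} [hp : Fact p.Prime]

/-- Weak orthogonality in the principal block. -/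
theorem principal_orth {M : Ideal AlgInt} (hM : IsPModular p M)
    (B : Finset (IrrCharacter G)) (hB : ∀ χ, χ ∈ B ↔ χ ∈ principalBlock M G) {y u : G}
    (hy : ¬ p ∣ orderOf y) {n : ℕ} (hu : u ^ p ^ n = 1) (hu1 : u ≠ 1) :
    ∑ χ ∈ B, (χ : G → ℂ) y * (χ : G → ℂ) u = 0 := by
  classical
  haveI : M.IsPrime := hM.2.1.isPrime
  haveI := Fintype.ofFinite G
  have hdvd : p ∣ orderOf u⁻¹ := by
    rw [orderOf_inv]
    obtain ⟨k, -, hk⟩ := (Nat.dvd_prime_pow hp.out).1 (orderOf_dvd_of_pow_eq_one hu)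
    rw [hk]
    refine dvd_pow_self p fun e => hu1 ?_
    rw [e, pow_zero, orderOf_eq_one_iff] at hk
    exact hk
  have h := Brauer.weakOrth_of_integral hM (principalBlock M G)
    (fun g => Block.blockCoeff_memLocalRing
      (by rw [Brauer.principalBlock_eq_blockOf_trivial]; exact Block.isPBlock_blockOf _) g)
    (x := y) (y := u⁻¹) hy hdvd
  rw [finsum_mem_eq_toFinset_sum] at h
  rw [← h]
  refine Finset.sum_congr ?_ fun χ _ => by rw [Char.irr_inv χ.2, Complex.conj_conj]
  ext χ
  simp [hB]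

theorem trivial_of_forall (hgen : normalClosure (H : Set G) = ⊤) (χ : IrrCharacter G)
    (h : ∀ x ∈ H, (χ : G → ℂ) x = (χ : G → ℂ) 1) : χ = Char.trivialIrr G := by
  obtain ⟨K, hKn, hK⟩ := Char.isCharacter_exists_kernel (Char.isCharacter_of_irr χ.2)
  have hle : normalClosure (H : Set G) ≤ K := normalClosure_le_normal fun x hx => (hK x).2 (h x hx)
  rw [hgen] at hle
  exact Subtype.ext (ExtClosed.eq_trivial_of_forall χ fun g => (hK g).1 (hle (mem_top g)))

/-- A character constant on the nonidentity powers of an element of order `p` has an integer value there. -/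
theorem exists_int_of_powers {χ : G → ℂ} (hχ : IsCharacter G χ) {a : G} (ha : orderOf a = p)
    (hc : ∀ i, 0 < i → i < p → χ (a ^ i) = χ a) : ∃ z : ℤ, χ a = z := by
  classical
  have hint : IsIntegral ℤ (χ a) := Char.isCharacter_isIntegral hχ a
  obtain ⟨n, ρ, rfl⟩ := hχ
  obtain ⟨ε, hε, hpow⟩ := Char.exists_character_eq_sum_roots ρ a
  rw [ha] at hε
  have h0 : p ≠ 0 := hp.out.ne_zero
  set T := Finset.univ.filter fun i => ε i = 1 with hT
  have hsum : ∑ j ∈ Finset.range p, ρ.character (a ^ j) = (p * T.card : ℕ) := by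
    simp only [hpow]
    rw [Finset.sum_comm, Finset.sum_congr rfl (g := fun i => if ε i = 1 then (p : ℂ) else 0)]
    · rw [← Finset.sum_filter, Finset.sum_const, nsmul_eq_mul, mul_comm, Nat.cast_mul]
    · intro i _
      split_ifs with h
      · simp [h]
      · have h1 := geom_sum_mul (ε i) p
        rw [hε i, sub_self] at h1
        exact (mul_eq_zero.1 h1).resolve_right (sub_ne_zero.2 h)
  have h1 : ∑ j ∈ Finset.range p, ρ.character (a ^ j) = ρ.character 1 + ((p - 1 : ℕ) : ℂ) * ρ.character a := by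
    rw [← Finset.add_sum_erase _ _ (Finset.mem_range.2 hp.out.pos), pow_zero,
      Finset.sum_congr rfl (g := fun _ => ρ.character a) fun j hj => hc j
        (Nat.pos_of_ne_zero (Finset.mem_erase.1 hj).1) (Finset.mem_range.1 (Finset.mem_erase.1 hj).2),
      Finset.sum_const, nsmul_eq_mul, Finset.card_erase_of_mem (Finset.mem_range.2 hp.out.pos), Finset.card_range]
  obtain ⟨d, hd⟩ := Char.isCharacter_one_nat (Char.isCharacter_character ρ)
  rw [hsum, hd] at h1
  have hp1 : ((p - 1 : ℕ) : ℂ) ≠ 0 := Nat.cast_ne_zero.2 (by have := hp.out.two_le; omega)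
  have hq : ρ.character a = ((((p * T.card : ℕ) : ℚ) - (d : ℚ)) / ((p - 1 : ℕ) : ℚ) : ℚ) := by
    push_cast
    rw [eq_div_iff hp1]
    push_cast at h1
    linear_combination -h1
  rw [hq] at hint
  obtain ⟨z, hz⟩ := Char.exists_int_of_isIntegral_rat hint
  exact ⟨z, by rw [hq, hz]; norm_num⟩

/-- Bounds at a coset of a `p'`-subgroup on which a character is constant. -/
theorem re_value_ge (χ : IrrCharacter G) (K : Subgroup G) {a y : G} (ha : a ∈ normalizer (K : Set G)) (hy : y ∈ K)
    {n : ℝ} (hn : ∀ k ∈ K, ((χ : G → ℂ) (k * a)).re = n) :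
    2 * n ≤ ((χ : G → ℂ) 1).re + ((χ : G → ℂ) y).re := by
  classical
  haveI := Fintype.ofFinite G
  haveI := Fintype.ofFinite K
  set X : ℝ := ∑ k : K, ((χ : G → ℂ) k).re with hX
  have hre_inv : ∀ g : G, ((χ : G → ℂ) g⁻¹).re = ((χ : G → ℂ) g).re := fun g => by
    rw [Char.irr_inv χ.2, Complex.conj_re]
  have hN : (0 : ℝ) < Fintype.card K := by exact_mod_cast Fintype.card_pos
  -- the norm of the projection at the coset
  have h1 : (Fintype.card K : ℝ) * n ≤ X := by
    have h := ExtClosed.gram_nonneg χ (Sum.elim (fun k : K => (k : G)) (fun k : K => (k : G) * a))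
      (Sum.elim (fun _ => 1) (fun _ => -1))
    simp only [Fintype.sum_sum_type, Sum.elim_inl, Sum.elim_inr, Complex.add_re, Complex.re_sum,
      Complex.re_ofReal_mul] at h
    have e1 : ∀ j : K, ∑ i : K, ((χ : G → ℂ) ((j : G)⁻¹ * i)).re = X := fun j => by
      rw [hX, ← Equiv.sum_comp (Equiv.mulLeft j) fun i : K => ((χ : G → ℂ) ((j : G)⁻¹ * i)).re]
      exact Finset.sum_congr rfl fun x _ => by simp
    have e2 : ∀ j i : K, ((χ : G → ℂ) (((j : G) * a)⁻¹ * ((i : G) * a))).re = ((χ : G → ℂ) ((j : G)⁻¹ * i)).re := by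
      intro j i
      conv_rhs => rw [← Char.irr_isClassFunction χ.2 ((j : G)⁻¹ * i) a⁻¹]
      congr 2
      group
    have e3 : ∀ j i : K, ((χ : G → ℂ) ((j : G)⁻¹ * ((i : G) * a))).re = n := fun j i => by
      rw [← mul_assoc]
      exact hn _ (K.mul_mem (K.inv_mem j.2) i.2)
    have e4 : ∀ j i : K, ((χ : G → ℂ) (((j : G) * a)⁻¹ * (i : G))).re = n := fun j i => by
      rw [← hre_inv, show (((j : G) * a)⁻¹ * (i : G))⁻¹ = ((i : G)⁻¹ * j) * a by group]
      exact hn _ (K.mul_mem (K.inv_mem i.2) j.2)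
    have e5 : ∀ f : K → K → ℝ, (∑ i : K, ∑ j : K, f j i) = ∑ j : K, ∑ i : K, f j i := fun f => Finset.sum_comm
    simp only [mul_one, one_mul, mul_neg, neg_neg, e2, e3, e4, Finset.sum_neg_distrib, neg_mul,
      Finset.sum_add_distrib, Finset.sum_const, Finset.card_univ, nsmul_eq_mul, e5 fun j i =>
        ((χ : G → ℂ) ((j : G)⁻¹ * i)).re, e1] at h
    nlinarith
  -- the element `y` on the complement of the fixed space
  have h2 : 4 * X ≤ 2 * (Fintype.card K : ℝ) * (((χ : G → ℂ) 1).re + ((χ : G → ℂ) y).re) := by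
    set N : ℝ := ((Fintype.card K : ℕ) : ℝ) with hNdef
    have h := ExtClosed.gram_nonneg χ (Sum.elim (fun b : Bool => if b then y else 1) (fun k : K => (k : G)))
      (Sum.elim (fun _ => 1) (fun _ => -(2 / N)))
    simp only [Fintype.sum_sum_type, Sum.elim_inl, Sum.elim_inr, Complex.add_re, Complex.re_sum,
      Complex.re_ofReal_mul, Fintype.sum_bool, if_true, Bool.false_eq_true, if_false, inv_one, one_mul,
      mul_one] at h
    have e1 : ∀ j : K, ∑ i : K, ((χ : G → ℂ) ((j : G)⁻¹ * i)).re = X := fun j => by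
      rw [hX, ← Equiv.sum_comp (Equiv.mulLeft j) fun i : K => ((χ : G → ℂ) ((j : G)⁻¹ * i)).re]
      exact Finset.sum_congr rfl fun x _ => by simp
    have e2 : ∑ i : K, ((χ : G → ℂ) (y⁻¹ * i)).re = X := by simpa using e1 ⟨y, hy⟩
    have e3 : ∑ j : K, ((χ : G → ℂ) ((j : G)⁻¹)).re = X := by simp only [hre_inv, hX]
    have e4 : ∑ j : K, ((χ : G → ℂ) ((j : G)⁻¹ * y)).re = X := by
      rw [← e2]
      exact Finset.sum_congr rfl fun j _ => by rw [← hre_inv, _root_.mul_inv_rev, inv_inv]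
    have e5 : ∑ i : K, ∑ j : K, ((χ : G → ℂ) ((j : G)⁻¹ * i)).re = N * X := by
      rw [Finset.sum_comm]
      simp only [e1, Finset.sum_const, Finset.card_univ, nsmul_eq_mul, hNdef]
    have e6 : ((χ : G → ℂ) y⁻¹).re = ((χ : G → ℂ) y).re := hre_inv y
    simp only [inv_mul_cancel, one_mul, mul_one, Finset.sum_add_distrib, ← Finset.mul_sum, e2, e3, e4, e5, e6] at h
    rw [show ∑ k : K, ((χ : G → ℂ) (k : G)).re = X from rfl] at h
    have hN2 : N * (2 / N) = 2 := by field_simp
    have e7 : (2 / N) * (2 / N) * (N * X) = (2 / N) * 2 * X := by rw [← mul_assoc, mul_assoc (2 / N) (2 / N) N, mul_comm (2 / N) N, hN2]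
    rw [neg_mul_neg, e7] at h
    have h' := mul_nonneg hN.le h
    nlinarith [h', hN2]
  nlinarith

set_option maxHeartbeats 1000000 in
theorem orbit_card_eq_one (hp2 : p ≠ 2) (hH : IsPGroup p H) (hcm : ∀ x ∈ H, ∀ y ∈ H, x * y = y * x)
    (hQ : IsClosed' p H) (hloc : Local p H) (hgen : normalClosure (H : Set G) = ⊤) {a : G} (ha : a ∈ H)
    (ha1 : a ≠ 1) (hodd : ¬ p ∣ (orb H a).card) : (orb H a).card = 1 := by
  classical
  haveI := Fintype.ofFinite G
  haveI := Fintype.ofFinite (IrrCharacter G)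
  obtain ⟨M, hM⟩ := BlkChar.exists_isPModular p hp.out
  haveI : M.IsPrime := hM.2.1.isPrime
  set B : Finset (IrrCharacter G) := Finset.univ.filter fun χ => χ ∈ principalBlock M G with hBdef
  have hB : ∀ χ, χ ∈ B ↔ χ ∈ principalBlock M G := fun χ => by simp [hBdef]
  have hpow : ∀ x ∈ H, ∃ n, x ^ p ^ n = 1 := fun x hx => by
    obtain ⟨n, hn⟩ := hH ⟨x, hx⟩
    exact ⟨n, by simpa using congrArg Subtype.val hn⟩
  have horth : ∀ {y : G}, ¬ p ∣ orderOf y → ∀ u ∈ H, u ≠ 1 → ∑ χ ∈ B, (χ : G → ℂ) y * (χ : G → ℂ) u = 0 := by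
    intro y hy u hu hu1
    obtain ⟨n, hn⟩ := hpow u hu
    exact principal_orth hM B hB hy hn hu1
  have horth1 : ∀ u ∈ H, u ≠ 1 → ∑ χ ∈ B, (χ : G → ℂ) 1 * (χ : G → ℂ) u = 0 := fun u hu hu1 =>
    horth (by rw [orderOf_one]; exact hp.out.not_dvd_one) u hu hu1
  choose f hf hfn using fun g : G => exists_img hH hQ ha g
  have hforb : ∀ g, f g ∈ orb H a := fun g => mem_orb.2 (hfn g)
  have hG : (Nat.card G : ℂ) ≠ 0 := Nat.cast_ne_zero.mpr Nat.card_pos.ne'
  have hmul : ∀ χ : IrrCharacter G, ∀ b x : G, ∑ g : G, (χ : G → ℂ) (x * (g * b * g⁻¹)) =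
      (Nat.card G : ℂ) * (χ : G → ℂ) b * (χ : G → ℂ) x / (χ : G → ℂ) 1 := fun χ b x => by
    rw [← Brauer.irr_conj_sum' χ.2 b x]
    exact Finset.sum_congr rfl fun g _ => Char.isClassFunction_mul_comm (Char.irr_isClassFunction χ.2) _ _
  set S : IrrCharacter G → ℂ := fun χ => ∑ x : H, (χ : G → ℂ) x with hS
  have hQid : ∀ b ∈ H, b ≠ 1 → ∀ d ∈ H, d ≠ 1 →
      ∑ χ ∈ B, S χ * (χ : G → ℂ) b * (χ : G → ℂ) d / (χ : G → ℂ) 1 = ∑ χ ∈ B, (χ : G → ℂ) d * S χ := by
    intro b hb hb1 d hd hd1
    apply mul_left_cancel₀ hG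
    choose f hf hfn using fun g : G => exists_img hH hQ hb g
    set Ψ : G → ℂ := fun u => if u = 1 then 0 else ∑ χ ∈ B, (χ : G → ℂ) d * (χ : G → ℂ) u with hΨ
    have hterm : ∀ g : G, ∀ x : H,
        ∑ χ ∈ B, (χ : G → ℂ) d * (χ : G → ℂ) (x * (g * b * g⁻¹)) = Ψ (x * f g) := by
      intro g x
      by_cases hxc : (x : G) * f g = 1
      · rw [hΨ]
        dsimp only
        rw [if_pos hxc, ← horth (y := x * (g * b * g⁻¹)) ?_ d hd hd1]
        · exact Finset.sum_congr rfl fun χ _ => mul_comm _ _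
        · rw [mul_eq_one_iff_eq_inv.1 hxc,
            show (f g)⁻¹ * (g * b * g⁻¹) = (f g)⁻¹ * ((g * b * g⁻¹) * (f g)⁻¹) * f g by group]
          have h2 := (hf g).2
          rwa [show (f g)⁻¹ * (g * b * g⁻¹ * (f g)⁻¹) * f g = (f g)⁻¹ * (g * b * g⁻¹ * (f g)⁻¹) * (f g)⁻¹⁻¹ by
            rw [inv_inv], ← MulAut.conj_apply, MulEquiv.orderOf_eq]
      · rw [hΨ]
        dsimp only
        rw [if_neg hxc]
        refine Finset.sum_congr rfl fun χ hχ => ?_
        rw [value_mul hH hcm hQ hloc hM ((hB χ).1 hχ) hb (hf g) x.2 hxc]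
    calc (Nat.card G : ℂ) * ∑ χ ∈ B, S χ * (χ : G → ℂ) b * (χ : G → ℂ) d / (χ : G → ℂ) 1
        = ∑ χ ∈ B, (χ : G → ℂ) d * ∑ x : H, ∑ g : G, (χ : G → ℂ) (x * (g * b * g⁻¹)) := by
          rw [Finset.mul_sum]
          refine Finset.sum_congr rfl fun χ _ => ?_
          simp only [hmul, hS, Finset.sum_mul, Finset.mul_sum, Finset.sum_div]
          exact Finset.sum_congr rfl fun x _ => by ring
      _ = ∑ g : G, ∑ x : H, Ψ (x * f g) := by
          simp only [Finset.mul_sum]
          rw [Finset.sum_comm, Finset.sum_congr rfl (fun x _ => Finset.sum_comm), Finset.sum_comm]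
          exact Finset.sum_congr rfl fun g _ => Finset.sum_congr rfl fun x _ => hterm g x
      _ = ∑ _g : G, ∑ x : H, Ψ x := by
          refine Finset.sum_congr rfl fun g _ => ?_
          rw [← Equiv.sum_comp (Equiv.mulRight (⟨f g, (hf g).1⟩ : H)) fun x : H => Ψ x]
          rfl
      _ = (Nat.card G : ℂ) * ∑ χ ∈ B, (χ : G → ℂ) d * S χ := by
          rw [Finset.sum_const, Finset.card_univ, nsmul_eq_mul, ← Nat.card_eq_fintype_card]
          congr 1
          simp only [hS, Finset.mul_sum]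
          rw [Finset.sum_comm (s := B)]
          refine Finset.sum_congr rfl fun x _ => ?_
          by_cases hx : (x : G) = 1
          · rw [hΨ]
            dsimp only
            rw [if_pos hx, hx, ← horth1 d hd hd1]
            exact Finset.sum_congr rfl fun χ _ => mul_comm _ _
          · rw [hΨ]
            dsimp only
            rw [if_neg hx]
  set s : IrrCharacter G → ℝ := fun χ => (S χ).re with hsdef
  have hs : ∀ χ, S χ = (s χ : ℂ) := fun χ => by
    have hconj : conj (S χ) = S χ := by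
      simp only [hS, map_sum]
      rw [← Equiv.sum_comp (Equiv.inv H) fun x : H => (χ : G → ℂ) x]
      exact Finset.sum_congr rfl fun x _ => by rw [Equiv.inv_apply, Subgroup.coe_inv, Char.irr_inv χ.2]
    exact (Complex.conj_eq_iff_re.1 hconj).symm
  have hs0 : ∀ χ, 0 ≤ s χ := fun χ => ExtClosed.sum_subgroup_nonneg χ H
  set deg : IrrCharacter G → ℝ := fun χ => ((χ : G → ℂ) 1).re with hdeg
  have hd : ∀ χ : IrrCharacter G, (χ : G → ℂ) 1 = (deg χ : ℂ) := fun χ => by
    obtain ⟨n, hn, e⟩ := Char.irr_one_pos χ.2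
    simp only [hdeg, e, Complex.natCast_re, Complex.ofReal_natCast]
  have hdpos : ∀ χ : IrrCharacter G, 0 < deg χ := fun χ => by
    obtain ⟨n, hn, e⟩ := Char.irr_one_pos χ.2
    simp only [hdeg, e, Complex.natCast_re]
    exact_mod_cast hn
  have htriv : Char.trivialIrr G ∈ B := (hB _).2 (by
    rw [Brauer.principalBlock_eq_blockOf_trivial]; exact Block.mem_blockOf_self _)
  have hvtriv : ∀ x, ((Char.trivialIrr G : IrrCharacter G) : G → ℂ) x = 1 := fun x => rfl
  have ha' : a⁻¹ ∈ H := H.inv_mem ha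
  have ha1' : a⁻¹ ≠ 1 := inv_ne_one.2 ha1
  by_cases hk : ∃ d ∈ H, d ≠ 1 ∧ d ∉ orb H a
  · obtain ⟨d₀, hd₀H, hd₀1, hd₀o⟩ := hk
    set d := d₀⁻¹ with hd_def
    have hdH : d ∈ H := H.inv_mem hd₀H
    have hd1 : d ≠ 1 := inv_ne_one.2 hd₀1
    have hdc : ∀ g, d * f g ≠ 1 := fun g e => hd₀o (by
      rw [mul_eq_one_iff_inv_eq, hd_def, inv_inv] at e
      exact e ▸ hforb g)
    have hconst : ∀ χ ∈ B, s χ ≠ 0 → ∀ x ∈ H, x ≠ 1 → (χ : G → ℂ) x = (χ : G → ℂ) a := by
      intro χ hχ hne x hx hx1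
      have hx' : x⁻¹ ∈ H := H.inv_mem hx
      have hx1' : x⁻¹ ≠ 1 := inv_ne_one.2 hx1
      have h1 := hQid a ha ha1 a⁻¹ ha' ha1'
      have h2 := hQid x hx hx1 x⁻¹ hx' hx1'
      have h3 := hQid a ha ha1 x⁻¹ hx' hx1'
      have h4 := hQid x hx hx1 a⁻¹ ha' ha1'
      have h6 : ∑ χ ∈ B, ((s χ * Complex.normSq ((χ : G → ℂ) a - (χ : G → ℂ) x) / deg χ : ℝ) : ℂ) = 0 := by
        rw [Finset.sum_congr rfl (g := fun χ : IrrCharacter G =>
          S χ * (χ : G → ℂ) a * (χ : G → ℂ) a⁻¹ / (χ : G → ℂ) 1 +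
          S χ * (χ : G → ℂ) x * (χ : G → ℂ) x⁻¹ / (χ : G → ℂ) 1 -
          (S χ * (χ : G → ℂ) a * (χ : G → ℂ) x⁻¹ / (χ : G → ℂ) 1 +
           S χ * (χ : G → ℂ) x * (χ : G → ℂ) a⁻¹ / (χ : G → ℂ) 1)) (fun χ _ => by
            push_cast
            rw [← Complex.mul_conj, map_sub, ← Char.irr_inv χ.2, ← Char.irr_inv χ.2, hs, hd]
            ring),
          Finset.sum_sub_distrib, Finset.sum_add_distrib, Finset.sum_add_distrib, h1, h2, h3, h4]
        ring
      rw [← Complex.ofReal_sum, Complex.ofReal_eq_zero] at h6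
      have h7 := (Finset.sum_eq_zero_iff_of_nonneg fun χ _ =>
        div_nonneg (mul_nonneg (hs0 χ) (Complex.normSq_nonneg _)) (hdpos χ).le).1 h6 χ hχ
      rcases div_eq_zero_iff.1 h7 with h | h
      · rcases mul_eq_zero.1 h with h | h
        · exact absurd h hne
        · exact (sub_eq_zero.1 (Complex.normSq_eq_zero.1 h)).symm
      · exact absurd h (hdpos χ).ne'
    have hzero : ∀ χ ∈ B, χ ≠ Char.trivialIrr G → s χ = 0 ∨ (χ : G → ℂ) a = 0 := by
      intro χ hχ hne
      by_contra hcon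
      push Not at hcon
      obtain ⟨hsne, hane⟩ := hcon
      have h := hmul χ a d
      have e : ∀ g : G, (χ : G → ℂ) (d * (g * a * g⁻¹)) = (χ : G → ℂ) a := fun g => by
        rw [value_mul hH hcm hQ hloc hM ((hB χ).1 hχ) ha (hf g) hdH (hdc g),
          hconst χ hχ hsne _ (H.mul_mem hdH (hf g).1) (hdc g)]
      rw [Finset.sum_congr rfl (fun g _ => e g), Finset.sum_const, Finset.card_univ, nsmul_eq_mul,
        ← Nat.card_eq_fintype_card, hconst χ hχ hsne d hdH hd1, mul_assoc, mul_div_assoc] at h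
      have h' := mul_left_cancel₀ hG h
      rw [eq_div_iff (Char.irr_one_ne_zero χ.2)] at h'
      refine hne (trivial_of_forall hgen χ fun x hx => ?_)
      by_cases hx1 : x = 1
      · rw [hx1]
      · rw [hconst χ hχ hsne x hx hx1]
        exact (mul_left_cancel₀ hane h').symm
    have hP : ∑ χ ∈ B, (χ : G → ℂ) a * S χ = (Nat.card H : ℂ) := by
      rw [← hQid a⁻¹ ha' ha1' a ha ha1, Finset.sum_eq_single_of_mem _ htriv]
      · simp [hS, hvtriv, Nat.card_eq_fintype_card]
      · intro χ hχ hne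
        rcases hzero χ hχ hne with h | h
        · simp [hs, h]
        · simp [h]
    set D := ∑ χ ∈ B, (χ : G → ℂ) a * (χ : G → ℂ) a⁻¹ with hD
    have hrD : ∑ χ ∈ B, (χ : G → ℂ) a * S χ = ((orb H a).card : ℂ) * D := by
      simp only [hS, Finset.mul_sum]
      rw [Finset.sum_comm]
      have hx0 : ∀ x : H, (∑ χ ∈ B, (χ : G → ℂ) a * (χ : G → ℂ) x) =
          if (x : G)⁻¹ ∈ orb H a then D else 0 := by
        intro x
        split_ifs with hx
        · obtain ⟨n, -, hn⟩ := mem_orb.1 hx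
          refine Finset.sum_congr rfl fun χ _ => ?_
          rw [← inv_inv (x : G), ← hn, Char.irr_inv χ.2, Char.irr_inv χ.2, Char.irr_isClassFunction χ.2 a n]
        · by_cases hx1 : (x : G) = 1
          · rw [hx1, ← horth1 a ha ha1]
            exact Finset.sum_congr rfl fun χ _ => mul_comm _ _
          have hxc : ∀ g, (x : G) * f g ≠ 1 := fun g e => hx (by
            rw [mul_eq_one_iff_inv_eq] at e; exact e ▸ hforb g)
          apply mul_left_cancel₀ hG
          rw [mul_zero, Finset.mul_sum]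
          calc ∑ χ ∈ B, (Nat.card G : ℂ) * ((χ : G → ℂ) a * (χ : G → ℂ) x)
              = ∑ χ ∈ B, (χ : G → ℂ) 1 * ∑ g : G, (χ : G → ℂ) (x * f g) := by
                refine Finset.sum_congr rfl fun χ hχ => ?_
                rw [← Finset.sum_congr rfl (fun g _ => value_mul hH hcm hQ hloc hM ((hB χ).1 hχ) ha
                  (hf g) x.2 (hxc g)), hmul χ a x]
                field_simp [Char.irr_one_ne_zero χ.2]
            _ = 0 := by
                simp only [Finset.mul_sum]
                rw [Finset.sum_comm]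
                exact Finset.sum_eq_zero fun g _ => horth1 _ (H.mul_mem x.2 (hf g).1) (hxc g)
      rw [Finset.sum_congr rfl (fun x _ => hx0 x), Finset.sum_ite, Finset.sum_const_zero, add_zero,
        Finset.sum_const, nsmul_eq_mul]
      congr 2
      refine Finset.card_bij (fun x _ => (x : G)⁻¹) (fun x hx => (Finset.mem_filter.1 hx).2)
        (fun x _ y _ h => Subtype.ext (inv_injective h)) fun y hy => ?_
      exact ⟨⟨y⁻¹, H.inv_mem (orb_le ha hy)⟩, Finset.mem_filter.2 ⟨Finset.mem_univ _, by simpa using hy⟩, inv_inv y⟩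
    rw [hrD] at hP
    have hr0 : ((orb H a).card : ℂ) ≠ 0 := Nat.cast_ne_zero.2
      (Finset.card_pos.2 ⟨a, self_mem_orb⟩).ne'
    have hDint : IsIntegral ℤ D := IsIntegral.sum _ fun χ _ =>
      (Char.isCharacter_isIntegral (Char.isCharacter_of_irr χ.2) _).mul
        (Char.isCharacter_isIntegral (Char.isCharacter_of_irr χ.2) _)
    rw [show D = (Nat.card H : ℂ) / ((orb H a).card : ℂ) by rw [eq_div_iff hr0, mul_comm, hP]] at hDint
    have hdvd := Char.dvd_of_isIntegral_div (Finset.card_pos.2 ⟨a, self_mem_orb⟩).ne' hDint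
    obtain ⟨m, hm⟩ := IsPGroup.iff_card.1 hH
    rw [hm] at hdvd
    exact Nat.eq_one_of_dvd_coprimes
      (Nat.Coprime.pow_right m ((hp.out.coprime_iff_not_dvd.2 hodd).symm)) dvd_rfl hdvd
  · push Not at hk
    exfalso
    set r := (orb H a).card with hr
    have hval : ∀ χ : IrrCharacter G, ∀ x ∈ H, x ≠ 1 → (χ : G → ℂ) x = (χ : G → ℂ) a := fun χ x hx hx1 => by
      obtain ⟨n, -, rfl⟩ := mem_orb.1 (hk x hx hx1)
      exact Char.irr_isClassFunction χ.2 a n
    have ha2 : a * a ≠ 1 := fun e => by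
      have : orderOf a ∣ 2 := orderOf_dvd_of_pow_eq_one (by rw [pow_two, e])
      obtain ⟨n, hn⟩ := hpow a ha
      obtain ⟨k, -, hk'⟩ := (Nat.dvd_prime_pow hp.out).1 (orderOf_dvd_of_pow_eq_one hn)
      rcases k with _ | k
      · rw [pow_zero, orderOf_eq_one_iff] at hk'; exact ha1 hk'
      · rw [hk'] at this
        exact hp2 ((Nat.prime_dvd_prime_iff_eq hp.out Nat.prime_two).1 ((dvd_pow_self p k.succ_ne_zero).trans this))
    have hr2 : 2 ≤ r := by
      have hne : a ≠ a⁻¹ := fun e => ha2 (by nth_rewrite 2 [e]; exact mul_inv_cancel a)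
      have hle : ({a, a⁻¹} : Finset G) ⊆ orb H a := by
        intro x hx
        rcases Finset.mem_insert.1 hx with e | e
        · rw [e]; exact self_mem_orb
        · rw [Finset.mem_singleton.1 e]; exact hk _ ha' ha1'
      exact (Finset.card_pair hne).symm.le.trans (Finset.card_le_card hle)
    have hr2' : (2 : ℝ) ≤ r := by exact_mod_cast hr2
    have hao : orderOf a = p := by
      obtain ⟨n, hn⟩ := hpow a ha
      obtain ⟨k, -, hk'⟩ := (Nat.dvd_prime_pow hp.out).1 (orderOf_dvd_of_pow_eq_one hn)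
      rcases k with _ | k
      · rw [pow_zero, orderOf_eq_one_iff] at hk'; exact absurd hk' ha1
      have hbo : orderOf (a ^ p ^ k) = p := by
        rw [orderOf_pow' _ (pow_ne_zero _ hp.out.ne_zero), hk', pow_succ,
          Nat.gcd_mul_right_left, Nat.mul_div_cancel_left _ (pow_pos hp.out.pos _)]
      have hb1 : a ^ p ^ k ≠ 1 := fun e => by
        rw [e, orderOf_one] at hbo; exact hp.out.one_lt.ne hbo
      obtain ⟨n', -, hn'⟩ := mem_orb.1 (hk _ (H.pow_mem ha _) hb1)
      rw [← hn', ← MulAut.conj_apply, MulEquiv.orderOf_eq] at hbo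
      exact hbo
    have hint : ∀ χ : IrrCharacter G, ∃ z : ℤ, (χ : G → ℂ) a = z := fun χ =>
      exists_int_of_powers (Char.isCharacter_of_irr χ.2) hao fun i hi hi' => hval χ _ (H.pow_mem ha i) fun e => by
        have hd := orderOf_dvd_of_pow_eq_one e
        rw [hao] at hd
        exact absurd (Nat.le_of_dvd hi hd) (by omega)
    set v : IrrCharacter G → ℝ := fun χ => ((χ : G → ℂ) a).re with hvdef
    have hv : ∀ χ : IrrCharacter G, (χ : G → ℂ) a = (v χ : ℂ) := fun χ => by
      obtain ⟨z, hz⟩ := hint χ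
      simp [hvdef, hz]
    have hvx : ∀ χ : IrrCharacter G, ∀ x ∈ H, x ≠ 1 → (χ : G → ℂ) x = (v χ : ℂ) := fun χ x hx hx1 => by
      rw [hval χ x hx hx1, hv]
    have hsval : ∀ χ, s χ = deg χ + r * v χ := by
      intro χ
      have : S χ = ((deg χ + r * v χ : ℝ) : ℂ) := by
        simp only [hS]
        rw [← Finset.add_sum_erase Finset.univ _ (Finset.mem_univ (1 : H)),
          Finset.sum_congr rfl (g := fun _ : H => (v χ : ℂ)) fun (x : H) hx => hvx χ x x.2 fun e =>
            (Finset.mem_erase.1 hx).1 (Subtype.ext e), Finset.sum_const, nsmul_eq_mul, OneMemClass.coe_one, hd]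
        push_cast
        congr 3
        rw [hr, ← Finset.card_map (f := ⟨Subtype.val, Subtype.val_injective⟩)]
        congr 1
        ext y
        simp only [Finset.mem_map, Finset.mem_erase, Finset.mem_univ, and_true, Function.Embedding.coeFn_mk]
        constructor
        · rintro ⟨x, hx, rfl⟩
          exact hk x x.2 fun e => hx (Subtype.ext e)
        · intro hy
          exact ⟨⟨y, orb_le ha hy⟩, fun e => ne_one_of_mem_orb ha1 hy (congrArg Subtype.val e), rfl⟩
      rw [hs, Complex.ofReal_inj] at this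
      exact this
    have hfib : r * (Finset.univ.filter fun g : G => f g = a⁻¹).card = Nat.card G := by
      rw [Nat.card_eq_fintype_card, ← Finset.card_univ,
        Finset.card_eq_sum_card_fiberwise (s := Finset.univ) (f := f) (t := orb H a) fun g _ => hforb g,
        Finset.sum_congr rfl (g := fun _ => (Finset.univ.filter fun g : G => f g = a⁻¹).card) ?_,
        Finset.sum_const, smul_eq_mul, hr]
      intro y hy
      obtain ⟨n₁, hn₁, hy'⟩ := mem_orb.1 hy
      obtain ⟨n₂, hn₂, hy''⟩ := mem_orb.1 (hk _ ha' ha1')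
      set n := n₁ * n₂⁻¹ with hn_def
      have hn : n ∈ normalizer (H : Set G) := mul_mem hn₁ (inv_mem hn₂)
      have hny : n * a⁻¹ * n⁻¹ = y := by rw [← hy', ← hy'', hn_def]; group
      refine (Finset.card_equiv (Equiv.mulLeft n) fun g => ?_).symm
      simp only [Finset.mem_filter, Finset.mem_univ, true_and, Equiv.coe_mulLeft]
      rw [← img_unique hH hQ ha ((hf g).conj hn) (hf (n * g)), ← hny]
      exact ⟨fun e => by rw [e], fun e => mul_left_cancel (mul_right_cancel e)⟩
    have hbound : ∀ χ ∈ B, χ ≠ Char.trivialIrr G → (r : ℝ) * v χ ≤ deg χ := by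
      intro χ hχ hne
      have hlt : v χ < deg χ := by
        refine lt_of_le_of_ne ?_ fun e => hne (trivial_of_forall hgen χ fun x hx => ?_)
        · obtain ⟨n, hn⟩ := Char.isCharacter_one_nat (Char.isCharacter_of_irr χ.2)
          have := (Complex.re_le_norm _).trans (Char.isCharacter_norm_le (Char.isCharacter_of_irr χ.2) a)
          simp only [hvdef, hdeg] at this ⊢
          linarith
        · by_cases hx1 : x = 1
          · rw [hx1]
          · rw [hvx χ x hx hx1, e, hd]
      have h := congrArg Complex.re (hmul χ a a)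
      rw [Complex.re_sum, hv, hd] at h
      have hle : ∀ g : G, v χ + (if f g = a⁻¹ then v χ - deg χ else 0) ≤
          ((χ : G → ℂ) (a * (g * a * g⁻¹))).re := by
        intro g
        split_ifs with hg
        · obtain ⟨K, hK, hn, hgK, hfix⟩ := hQ g
          have hm : g * a * g⁻¹ * (f g)⁻¹ ∈ K :=
            mem_of_coprime hn hH ((K ⊔ H).mul_mem (hgK a ha) (mem_sup_right (H.inv_mem (hf g).1))) (hf g).2
          have hy : a * (g * a * g⁻¹) ∈ K := by
            rw [show a * (g * a * g⁻¹) = a * (g * a * g⁻¹ * (f g)⁻¹) * a⁻¹ by rw [hg]; group]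
            exact (mem_normalizer_iff.1 (hn ha) _).1 hm
          have h := re_value_ge χ K (hn ha) hy (n := v χ) fun k hk' => by
            rw [value_coset hH hcm hloc hM ((hB χ).1 hχ) hK hn hfix ha ha1 hk']
          simp only [hdeg]
          linarith
        · have hac : a * f g ≠ 1 := fun e => hg (inv_eq_of_mul_eq_one_right e).symm
          rw [value_mul hH hcm hQ hloc hM ((hB χ).1 hχ) ha (hf g) ha hac,
            hvx χ _ (H.mul_mem ha (hf g).1) hac, Complex.ofReal_re, add_zero]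
      have hsum := Finset.sum_le_sum (s := Finset.univ) fun g _ => hle g
      rw [h, Finset.sum_add_distrib, Finset.sum_const, Finset.card_univ, nsmul_eq_mul, ← Nat.card_eq_fintype_card,
        Finset.sum_ite, Finset.sum_const_zero, add_zero, Finset.sum_const, nsmul_eq_mul] at hsum
      set F := (Finset.univ.filter fun g : G => f g = a⁻¹).card with hF
      have hGF : (Nat.card G : ℝ) = r * F := by exact_mod_cast hfib.symm
      have hF0 : (0 : ℝ) < F := by
        have : 0 < r * F := hfib ▸ Nat.card_pos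
        exact_mod_cast Nat.pos_of_mul_pos_left this
      rw [show ((Nat.card G : ℂ) * (v χ : ℂ) * (v χ : ℂ) / (deg χ : ℂ)) =
        (((Nat.card G : ℝ) * v χ * v χ / deg χ : ℝ) : ℂ) by push_cast; rfl, Complex.ofReal_re, hGF,
        le_div_iff₀ (hdpos χ)] at hsum
      have h2 : 0 ≤ ((r : ℝ) * v χ - deg χ) * (v χ - deg χ) := by nlinarith
      nlinarith
    have hQa : ∑ χ ∈ B, s χ * v χ * v χ / deg χ = ∑ χ ∈ B, v χ * s χ := by
      have h := hQid a ha ha1 a ha ha1
      simp only [hs, hv, hd] at h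
      exact_mod_cast h
    have h0 : ∑ χ ∈ B, deg χ * v χ = 0 := by
      have h := horth1 a ha ha1
      simp only [hv, hd] at h
      exact_mod_cast h
    have hkey : ∑ χ ∈ B, v χ ^ 2 * (r - 1 - r * v χ / deg χ) = 0 := by
      have e : ∀ χ ∈ B, v χ ^ 2 * (r - 1 - r * v χ / deg χ) =
          v χ * s χ - s χ * v χ * v χ / deg χ - deg χ * v χ := fun χ _ => by
        rw [hsval]; field_simp [(hdpos χ).ne']; ring
      rw [Finset.sum_congr rfl e, Finset.sum_sub_distrib, Finset.sum_sub_distrib, hQa, h0]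
      ring
    have hvt : v (Char.trivialIrr G) = 1 := by simp only [hvdef, hvtriv, Complex.one_re]
    have hdt : deg (Char.trivialIrr G) = 1 := by simp only [hdeg, hvtriv, Complex.one_re]
    rw [← Finset.add_sum_erase B _ htriv, hvt, hdt] at hkey
    rw [← Finset.add_sum_erase B _ htriv, hvt, hdt] at h0
    obtain ⟨χ₀, hχ₀, hneg⟩ : ∃ χ ∈ B.erase (Char.trivialIrr G), v χ < 0 := by
      by_contra hcon
      push Not at hcon
      have := Finset.sum_nonneg fun χ hχ => mul_nonneg (hdpos χ).le (hcon χ hχ)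
      linarith
    have hnn : ∀ χ ∈ B.erase (Char.trivialIrr G), 0 ≤ v χ ^ 2 * (r - 1 - r * v χ / deg χ) := by
      intro χ hχ
      have h := hbound χ (Finset.mem_of_mem_erase hχ) (Finset.ne_of_mem_erase hχ)
      have h' : (r : ℝ) * v χ / deg χ ≤ 1 := (div_le_one (hdpos χ)).2 h
      exact mul_nonneg (sq_nonneg _) (by linarith)
    have h1 := Finset.single_le_sum hnn hχ₀
    have hsq : 1 ≤ v χ₀ ^ 2 := by
      obtain ⟨z, hz⟩ := hint χ₀
      have hvz : v χ₀ = z := by simp only [hvdef, hz, Complex.intCast_re]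
      rw [hvz] at hneg ⊢
      have hz' : z ≤ -1 := by
        have : z < 0 := by exact_mod_cast hneg
        omega
      have : (z : ℝ) ≤ -1 := by exact_mod_cast hz'
      nlinarith
    have h2 : (r : ℝ) * v χ₀ / deg χ₀ < 0 :=
      div_neg_of_neg_of_pos (mul_neg_of_pos_of_neg (by linarith) hneg) (hdpos χ₀)
    have h3 : 1 < v χ₀ ^ 2 * (r - 1 - r * v χ₀ / deg χ₀) := by nlinarith
    norm_num at hkey
    linarith

end Cfsg.Agent.LAE62.PClosed
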