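import Cfsg.Agent.LAE62.PClosed.Main
import Cfsg.Agent.GlauberCorr.Setup
import Cfsg.Agent.CharExt.Gallagher
import Cfsg.Agent.Char.Product

/-!
An abelian closed subgroup of odd prime power order generating a group has no fixed points on the core.
-/

set_option autoImplicit false
set_option linter.style.haveILetI false

open Subgroup

namespace Cfsg.Agent.LAE62.PClosed

open Cfsg
open scoped ComplexConjugate commutatorElement

universe u

variable {G : Type u} [Group G] [Finite G] {H : Subgroup G} {p : ℕ} [hp : Fact p.Prime]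

theorem pair_bound {ι : Type*} [Fintype ι] [DecidableEq ι] (n : ι → ℤ) {i j : ι} (hij : n i ≠ n j) :
    (Fintype.card ι : ℤ) - 1 ≤ Fintype.card ι * ∑ k, n k ^ 2 - (∑ k, n k) ^ 2 := by
  have hD : ∀ a b : ι, 0 ≤ (n a - n b) ^ 2 := fun a b => sq_nonneg _
  have hid : ∑ k, ∑ l, (n k - n l) ^ 2 = 2 * (Fintype.card ι * ∑ k, n k ^ 2 - (∑ k, n k) ^ 2) := by
    simp only [sub_sq, Finset.sum_add_distrib, Finset.sum_sub_distrib, Finset.sum_const, Finset.card_univ,
      nsmul_eq_mul, ← Finset.mul_sum, ← Finset.sum_mul]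
    ring
  have hne : i ≠ j := fun e => hij (e ▸ rfl)
  have h1 : ∀ k, 1 ≤ (n i - n k) ^ 2 + (n j - n k) ^ 2 := by
    intro k
    by_cases h : n i = n k
    · have : n j - n k ≠ 0 := fun e => hij (h.trans (sub_eq_zero.1 e).symm)
      have := pow_two_pos_of_ne_zero this
      have := hD i k
      omega
    · have := pow_two_pos_of_ne_zero (sub_ne_zero.2 h)
      have := hD j k
      omega
  set s : Finset ι := {i, j} with hs
  have hsc : s.card = 2 := Finset.card_pair hne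
  have hcard : (sᶜ.card : ℤ) = Fintype.card ι - 2 := by
    have h := Finset.card_add_card_compl s
    rw [hsc] at h
    omega
  have hDij : 1 ≤ (n i - n j) ^ 2 := by
    have := pow_two_pos_of_ne_zero (sub_ne_zero.2 hij)
    omega
  have hA : 2 * (n i - n j) ^ 2 + (Fintype.card ι - 2) ≤ ∑ k ∈ s, ∑ l, (n k - n l) ^ 2 := by
    rw [hs, Finset.sum_pair hne, ← Finset.sum_add_distrib, ← Finset.sum_add_sum_compl s, hs,
      Finset.sum_pair hne, ← hs]
    have h := Finset.card_nsmul_le_sum sᶜ (fun l => (n i - n l) ^ 2 + (n j - n l) ^ 2) 1 fun l _ => h1 l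
    rw [nsmul_one, hcard] at h
    have e : (n j - n i) ^ 2 = (n i - n j) ^ 2 := by ring
    simp only [sub_self, e]
    linarith
  have hB : (Fintype.card ι : ℤ) - 2 ≤ ∑ k ∈ sᶜ, ∑ l, (n k - n l) ^ 2 := by
    rw [← hcard]
    have h := Finset.card_nsmul_le_sum sᶜ (fun k => ∑ l, (n k - n l) ^ 2) 1 fun k _ => by
      refine le_trans ?_ (Finset.sum_le_sum_of_subset_of_nonneg (Finset.subset_univ s) fun l _ _ => hD k l)
      rw [hs, Finset.sum_pair hne]
      have e1 : (n k - n i) ^ 2 = (n i - n k) ^ 2 := by ring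
      have e2 : (n k - n j) ^ 2 = (n j - n k) ^ 2 := by ring
      rw [e1, e2]
      exact h1 k
    rwa [nsmul_one] at h
  rw [← Finset.sum_add_sum_compl s] at hid
  linarith

/-- A character of a cyclic group of prime order takes values of total norm `0` or at least `p - 1`
off the identity. -/
theorem norm_dichotomy {A : Type u} [Group A] [Fintype A] (hA : Nat.card A = p) {c : A → ℂ}
    (hc : IsCharacter A c) :
    (∀ x, x ≠ 1 → c x = 0) ∨
      ((p : ℝ) - 1) ≤ (∑ x : A, Complex.normSq (c x)) - Complex.normSq (c 1) := by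
  classical
  haveI hcyc : IsCyclic A := isCyclic_of_prime_card hA
  have hcomm : ∀ a b : A, a * b = b * a := fun a b => (IsCyclic.commutative (α := A)).is_comm.comm a b
  have hcard : Fintype.card (IrrCharacter A) = p := by
    rw [← Nat.card_eq_fintype_card, Char.card_irr_eq_card_conjClasses, ← hA]
    refine (Nat.card_congr (Equiv.ofBijective ConjClasses.mk ⟨fun a b h => ?_, ?_⟩)).symm
    · obtain ⟨x, hx⟩ := isConj_iff.1 (ConjClasses.mk_eq_mk_iff_isConj.1 h)
      rw [← hx, hcomm x a, mul_inv_cancel_right]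
    · exact fun y => Quot.exists_rep y
  choose n hn using fun χ : IrrCharacter A => Char.isCharacter_classInner_nat hc χ
  have hcl := Char.isCharacter_isClassFunction hc
  have hexp := Char.eq_sum_classInner_smul (f := c) hcl
  have hdeg : ∀ χ : IrrCharacter A, (χ : A → ℂ) 1 = 1 := fun χ =>
    Char.irr_degree_one_of_comm hcomm χ.2
  have h1 : c 1 = ((∑ χ, (n χ : ℤ) : ℤ) : ℂ) := by
    conv_lhs => rw [hexp]
    simp [Finset.sum_apply, hn, hdeg]
  have h2 : ((∑ x : A, Complex.normSq (c x) : ℝ) : ℂ) = ((p * ∑ χ, (n χ : ℤ) ^ 2 : ℤ) : ℂ) := by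
    push_cast
    rw [Finset.sum_congr rfl (g := fun x => c x * conj (c x)) fun x _ => (Complex.mul_conj (c x)).symm,
      Char.sum_mul_conj_eq_card_mul_classInner, Char.classInner_eq_sum_mul_conj hcl, hA]
    congr 1
    exact Finset.sum_congr rfl fun χ _ => by rw [hn, map_natCast, pow_two]
  rw [show (((p * ∑ χ, (n χ : ℤ) ^ 2 : ℤ)) : ℂ) = ((((p * ∑ χ, (n χ : ℤ) ^ 2 : ℤ)) : ℝ) : ℂ) by norm_cast,
    Complex.ofReal_inj] at h2
  by_cases h : ∀ χ ψ : IrrCharacter A, (n χ : ℤ) = n ψ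
  · left
    obtain ⟨χ₀⟩ : Nonempty (IrrCharacter A) := ⟨Char.trivialIrr A⟩
    have hS : ∑ χ, (n χ : ℤ) = p * n χ₀ := by
      rw [Finset.sum_congr rfl fun χ _ => h χ χ₀, Finset.sum_const, Finset.card_univ, hcard, nsmul_eq_mul]
    have hQ : ∑ χ, (n χ : ℤ) ^ 2 = p * (n χ₀ : ℤ) ^ 2 := by
      rw [Finset.sum_congr rfl fun χ _ => by rw [h χ χ₀], Finset.sum_const, Finset.card_univ, hcard, nsmul_eq_mul]
    rw [hS] at h1
    have h0 : Complex.normSq (c 1) = ((p : ℝ) * n χ₀) * ((p : ℝ) * n χ₀) := by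
      rw [h1]
      push_cast
      rw [← Complex.ofReal_natCast, ← Complex.ofReal_natCast, ← Complex.ofReal_mul, Complex.normSq_ofReal]
    rw [← Finset.add_sum_erase _ _ (Finset.mem_univ (1 : A)), hQ, h0] at h2
    push_cast at h2
    intro x hx
    have h3 : ∑ y ∈ Finset.univ.erase 1, Complex.normSq (c y) = 0 := by linear_combination h2
    exact Complex.normSq_eq_zero.1 ((Finset.sum_eq_zero_iff_of_nonneg fun y _ => Complex.normSq_nonneg _).1 h3 x
      (Finset.mem_erase.2 ⟨hx, Finset.mem_univ x⟩))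
  · right
    push Not at h
    obtain ⟨χ, ψ, hne⟩ := h
    have h3 := pair_bound (fun χ : IrrCharacter A => (n χ : ℤ)) hne
    rw [hcard] at h3
    have h4 : ((((p : ℤ) - 1 : ℤ)) : ℝ) ≤ (((p * ∑ χ, (n χ : ℤ) ^ 2 - (∑ χ, (n χ : ℤ)) ^ 2) : ℤ) : ℝ) :=
      Int.cast_le.2 h3
    rw [h2, h1, show ((((∑ χ, (n χ : ℤ)) : ℤ)) : ℂ) = ((((∑ χ, (n χ : ℤ)) : ℤ) : ℝ) : ℂ) by norm_cast,
      Complex.normSq_ofReal]
    push_cast at h4 ⊢
    linarith

/-- The pairing of a character of `A × C` with an irreducible character of `C` is a character of `A`. -/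
theorem isCharacter_pairing {A C : Type u} [Group A] [Fintype A] [Group C] [Fintype C] {F : A × C → ℂ}
    (hF : IsCharacter (A × C) F) (ξ : IrrCharacter C) :
    IsCharacter A fun x => classInner (fun v => F (x, v)) (ξ : C → ℂ) := by
  classical
  have hcl : IsClassFunction A fun x => classInner (fun v => F (x, v)) (ξ : C → ℂ) := fun x y => by
    refine congrArg (classInner · (ξ : C → ℂ)) (funext fun v => ?_)
    have := Char.isCharacter_isClassFunction hF (x, v) (y, 1)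
    simpa using this
  refine Char.isCharacter_iff_classInner_nat.2 ⟨hcl, fun l => ?_⟩
  obtain ⟨n, hn⟩ := Char.isCharacter_classInner_nat hF
    ⟨_, Char.isIrrCharacter_prodMul l.2 ξ.2⟩
  refine ⟨n, ?_⟩
  rw [← hn]
  simp only [classInner, Nat.card_prod, Nat.cast_mul, _root_.mul_inv, Fintype.sum_prod_type,
    Finset.mul_sum, Finset.sum_mul, map_mul]
  exact Finset.sum_congr rfl fun x _ => Finset.sum_congr rfl fun v _ => by ring

omit hp in
/-- The norm of an extension on a coset. -/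
theorem sum_coset_norm (O : Subgroup G) [O.Normal] [Fintype O] (θ : IrrCharacter O) (χ : IrrCharacter G)
    (hext : ∀ n : O, (χ : G → ℂ) n = (θ : O → ℂ) n) (x : G) :
    ∑ o : O, Complex.normSq ((χ : G → ℂ) (o * x)) = (Nat.card O : ℝ) := by
  classical
  haveI := Fintype.ofFinite G
  haveI := Fintype.ofFinite (G ⧸ O)
  set β : G ⧸ O → ℂ := fun q => if q = (x : G ⧸ O) then 1 else 0 with hβ
  have h := GlauberCorr.gallagher_classInner O θ χ hext β β
  have e1 : classInner β β = (Nat.card (G ⧸ O) : ℂ)⁻¹ := by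
    simp [classInner, hβ]
  have e2 : ∑ g : G, β (g : G ⧸ O) * (χ : G → ℂ) g * conj (β (g : G ⧸ O) * (χ : G → ℂ) g) =
      ∑ o : O, ((Complex.normSq ((χ : G → ℂ) (o * x)) : ℝ) : ℂ) := by
    have hterm : ∀ g : G, β (g : G ⧸ O) * (χ : G → ℂ) g * conj (β (g : G ⧸ O) * (χ : G → ℂ) g) =
        if (g : G ⧸ O) = (x : G ⧸ O) then ((Complex.normSq ((χ : G → ℂ) g) : ℝ) : ℂ) else 0 := fun g => by
      simp only [hβ]
      split_ifs <;> simp [Complex.mul_conj]
    simp only [hterm]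
    rw [← Finset.sum_filter]
    refine (Finset.sum_bij (fun (o : O) _ => (o : G) * x) (fun o _ => ?_) (fun a _ b _ h =>
      Subtype.ext (mul_right_cancel h)) (fun g hg => ?_) fun o _ => rfl).symm
    · simp [(QuotientGroup.eq_one_iff (o : G)).2 o.2]
    · have hg' : (g : G ⧸ O) = (x : G ⧸ O) := (Finset.mem_filter.1 hg).2
      refine ⟨⟨g * x⁻¹, ?_⟩, Finset.mem_univ _, by simp⟩
      rw [← QuotientGroup.eq_one_iff, QuotientGroup.mk_mul, QuotientGroup.mk_inv, hg', mul_inv_cancel]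
  have hG : (Nat.card G : ℂ) = (Nat.card (G ⧸ O) : ℂ) * (Nat.card O : ℂ) := by
    rw [← Nat.cast_mul, ← Subgroup.index_eq_card, Subgroup.index_mul_card]
  have hq : (Nat.card (G ⧸ O) : ℂ) ≠ 0 := Nat.cast_ne_zero.2 Nat.card_pos.ne'
  have hG' : (Nat.card G : ℂ) ≠ 0 := Nat.cast_ne_zero.2 Nat.card_pos.ne'
  rw [e1] at h
  simp only [classInner, e2] at h
  rw [inv_mul_eq_iff_eq_mul₀ hG', hG, mul_comm (Nat.card (G ⧸ O) : ℂ), mul_assoc, mul_inv_cancel₀ hq, mul_one,
    ← Complex.ofReal_sum, ← Complex.ofReal_natCast, Complex.ofReal_inj] at h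
  exact h

omit hp in
theorem norm_eq_of_squares {χ : G → ℂ} {d : ℕ} (hd0 : 0 < d) (hd : χ 1 = d) {a : G} (hne : χ a ≠ 0)
    (hcop : Nat.Coprime 2 (orderOf a)) (h : ∀ m : ℕ, χ (a ^ 2 ^ m) * χ (a ^ 2 ^ m) = (d : ℂ) * χ (a ^ 2 ^ (m + 1))) :
    ‖χ a‖ = (χ 1).re := by
  have hseq : ∀ m : ℕ, χ (a ^ (2 ^ m)) * (d : ℂ) ^ (2 ^ m) = (d : ℂ) * χ a ^ (2 ^ m) := by
    intro m
    induction m with
    | zero => simp [mul_comm]
    | succ m ihm =>
      have hm := h m
      apply mul_left_cancel₀ (Nat.cast_ne_zero.2 hd0.ne' : (d : ℂ) ≠ 0)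
      rw [show (2 : ℕ) ^ (m + 1) = 2 ^ m + 2 ^ m by ring] at hm ⊢
      rw [pow_add (χ a), pow_add (d : ℂ)]
      linear_combination -((d : ℂ) ^ (2 ^ m) * (d : ℂ) ^ (2 ^ m)) * hm +
        (χ (a ^ 2 ^ m) * (d : ℂ) ^ 2 ^ m + (d : ℂ) * χ a ^ 2 ^ m) * ihm
  set m := (orderOf a).totient with hm
  have hmpos : 0 < m := Nat.totient_pos.2 (orderOf_pos a)
  have hfix : a ^ (2 ^ m) = a := by
    conv_rhs => rw [← pow_one a]
    exact pow_eq_pow_iff_modEq.2 (Nat.ModEq.pow_totient hcop)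
  obtain ⟨N, hN⟩ : ∃ N, 2 ^ m = N + 2 :=
    ⟨2 ^ m - 2, by have := Nat.one_lt_pow hmpos.ne' (show 1 < 2 by norm_num); omega⟩
  have hs := hseq m
  rw [hfix, hN] at hs
  rw [hd, Complex.natCast_re]
  have h' := congrArg (‖·‖) hs
  simp only [norm_mul, norm_pow, Complex.norm_natCast] at h'
  have hx : (0 : ℝ) < ‖χ a‖ := norm_pos_iff.2 hne
  have hdd : (0 : ℝ) < (d : ℝ) := Nat.cast_pos.2 hd0
  have h'' : ‖χ a‖ ^ (N + 1) = (d : ℝ) ^ (N + 1) := by
    have : ‖χ a‖ * ((d : ℝ) * (d : ℝ) ^ (N + 1)) = ‖χ a‖ * ((d : ℝ) * ‖χ a‖ ^ (N + 1)) := by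
      rw [show (d : ℝ) * (d : ℝ) ^ (N + 1) = (d : ℝ) ^ (N + 2) by ring, h']; ring
    exact (mul_left_cancel₀ hdd.ne' (mul_left_cancel₀ hx.ne' this)).symm
  exact (pow_left_inj₀ hx.le hdd.le N.succ_ne_zero).1 h''

/-- An invariant character of the core not killing a fixed point. -/
theorem exists_theta (hH : IsPGroup p H) (O : Subgroup G) [O.Normal] (hO : ¬ p ∣ Nat.card O) (o₀ : O)
    (ho : o₀ ≠ 1) (hfix : ∀ x ∈ H, x * (o₀ : G) * x⁻¹ = o₀) :
    ∃ θ : IrrCharacter O, (∀ x ∈ H, ∀ n : O, (θ : O → ℂ) (CharExt.cj O x n) = (θ : O → ℂ) n) ∧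
      (θ : O → ℂ) o₀ ≠ (θ : O → ℂ) 1 := by
  classical
  haveI := Fintype.ofFinite O
  haveI : NeZero p := ⟨hp.out.ne_zero⟩
  set φ : H →* MulAut O := (MulAut.conjNormal).comp H.subtype with hφ
  have hφv : ∀ (x : H) (n : O), φ x n = CharExt.cj O (x : G) n := fun x n =>
    Subtype.ext (MulAut.conjNormal_apply (x : G) n)
  have ho' : ∀ x : H, φ x o₀ = o₀ := fun x => by
    rw [hφv]; exact Subtype.ext (hfix x x.2)
  let σ := GlauberCorr.irrPerm φ
  have hval : ∀ (x : H) (θ : IrrCharacter O) (n : O), ((σ x θ : IrrCharacter O) : O → ℂ) n = (θ : O → ℂ) (φ x⁻¹ n) :=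
    fun _ _ _ => rfl
  have hA := GlauberCorr.sum_congr_fixed hH σ (fun θ => (θ : O → ℂ) 1 * (θ : O → ℂ) o₀)
    (fun θ => (GlauberCorr.irr_isIntegral θ _).mul (GlauberCorr.irr_isIntegral θ _))
    (fun x θ => by simp only [hval, map_one, ho'])
  have hB := GlauberCorr.sum_congr_fixed hH σ (fun θ => (θ : O → ℂ) 1 * (θ : O → ℂ) 1)
    (fun θ => (GlauberCorr.irr_isIntegral θ _).mul (GlauberCorr.irr_isIntegral θ _))
    (fun x θ => by simp only [hval, map_one])
  rw [Char.sum_irr_degree_mul, if_neg ho] at hA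
  rw [Char.sum_irr_degree_mul, if_pos rfl] at hB
  by_contra hcon
  push Not at hcon
  have he : ∑ θ with (∀ x, σ x θ = θ), (θ : O → ℂ) 1 * (θ : O → ℂ) o₀ =
      ∑ θ with (∀ x, σ x θ = θ), (θ : O → ℂ) 1 * (θ : O → ℂ) 1 := by
    refine Finset.sum_congr rfl fun θ hθ => ?_
    rw [hcon θ fun x hx n => ?_]
    have h := (GlauberCorr.irrPerm_fixed_iff φ θ).1 (Finset.mem_filter.1 hθ).2 ⟨x, hx⟩ n
    rwa [hφv] at h
  exact hO (GlauberCorr.Congr.nat_dvd (hB.trans ((GlauberCorr.Congr.of_eq he.symm).trans hA.symm)))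

theorem exists_extension (hH : IsPGroup p H) (O : Subgroup G) [O.Normal] (hO : ¬ p ∣ Nat.card O)
    (hOH : O ⊔ H = ⊤) (θ : IrrCharacter O)
    (hθ : ∀ x ∈ H, ∀ n : O, (θ : O → ℂ) (CharExt.cj O x n) = (θ : O → ℂ) n) :
    ∃ χ : IrrCharacter G, ∀ n : O, (χ : G → ℂ) n = (θ : O → ℂ) n := by
  classical
  haveI := Fintype.ofFinite O
  have hinv : ∀ (g : G) (n : O), (θ : O → ℂ) (CharExt.cj O g n) = (θ : O → ℂ) n := by
    intro g n
    obtain ⟨o, ho, x, hx, rfl⟩ := exists_mul le_normalizer_of_normal (show g ∈ O ⊔ H by rw [hOH]; exact mem_top g)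
    rw [CharExt.cj_mul]
    exact (Char.irr_isClassFunction θ.2 (CharExt.cj O x n) ⟨o, ho⟩).trans (hθ x hx n)
  have hidx : O.index ∣ Nat.card H := by
    have h := relIndex_sup_left (H := H) (K := O)
    rw [hOH, relIndex_top_right] at h
    rw [h]
    exact relIndex_dvd_card O H
  obtain ⟨n, hn⟩ := IsPGroup.iff_card.1 hH
  have hcopO : Nat.Coprime O.index (Nat.card O) :=
    Nat.Coprime.coprime_dvd_left (hn ▸ hidx) (Nat.Coprime.pow_left n (hp.out.coprime_iff_not_dvd.2 hO))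
  obtain ⟨d, hd0, hd, hdvd⟩ := Char.irr_degree_dvd_card θ.2
  have hlin := CharExt.detChar_isLin (θ : O → ℂ)
  let lam : O →* ℂˣ := hlin.toHom
  have hlam : ∀ n, (lam n : ℂ) = Cfsg.detChar (θ : O → ℂ) n := fun n => CharExt.IsLin.toHom_apply hlin n
  have hlinv : ∀ (g : G) (n : O), lam ⟨g * n * g⁻¹, (inferInstance : O.Normal).conj_mem (n : G) n.2 g⟩ = lam n :=
    fun g n => Units.ext (by
      rw [hlam, hlam]
      exact CharExt.detChar_inv O (Char.isCharacter_of_irr θ.2) hinv g n)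
  have hord : orderOf lam ∣ Nat.card O :=
    orderOf_dvd_of_pow_eq_one (MonoidHom.ext fun n => by
      show lam n ^ Nat.card O = 1
      rw [← map_pow, pow_card_eq_one', map_one])
  obtain ⟨μ, ⟨hμres, -⟩, -⟩ := CharExt.exists_unique_coprime_extension O lam hlinv (hcopO.coprime_dvd_right hord)
  obtain ⟨χ, hχ, hχres, -⟩ := CharExt.exists_char_extension O (θ : O → ℂ) θ.2 hinv d hd
    (hcopO.coprime_dvd_right hdvd) (fun g => (μ g : ℂ)) (CharExt.homVal_isLin μ) (fun n => by rw [hμres, hlam])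
  exact ⟨⟨χ, hχ⟩, hχres⟩

/-- On the fixed points of an element of order `p`, a character of unit norm is a single irreducible. -/
theorem exists_single {χ : G → ℂ} (hχ : IsCharacter G χ) {a : G} (ha : orderOf a = p) (C : Subgroup G)
    [Fintype C] (hC : C ≤ centralizer ({a} : Set G))
    (hnorm : ∀ x ∈ zpowers a, x ≠ 1 → ∑ v : C, Complex.normSq (χ ((v : G) * x)) = (Nat.card C : ℝ)) :
    ∃ ξ : IrrCharacter C, ∀ x ∈ zpowers a, x ≠ 1 → ∃ c : ℂ, c ≠ 0 ∧ ∀ v : C, χ ((v : G) * x) = c * (ξ : C → ℂ) v := by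
  classical
  haveI := Fintype.ofFinite (zpowers a)
  have hcomm : ∀ (x : zpowers a) (v : C), Commute (x : G) (v : G) := by
    intro x v
    obtain ⟨i, hi⟩ := mem_zpowers_iff.1 x.2
    rw [← hi]
    exact Commute.zpow_left (mem_centralizer_singleton_iff.1 (hC v.2)).symm i
  let f : zpowers a × C →* G := MonoidHom.noncommCoprod (zpowers a).subtype C.subtype hcomm
  have hf : ∀ x v, f (x, v) = (v : G) * x := fun x v => by
    show (x : G) * (v : G) = _
    exact (hcomm x v).eq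
  set c : IrrCharacter C → zpowers a → ℂ := fun ξ x => classInner (fun v => χ (f (x, v))) (ξ : C → ℂ) with hc
  have hch : ∀ ξ, IsCharacter (zpowers a) (c ξ) := fun ξ =>
    isCharacter_pairing (Char.isCharacter_comp hχ f) ξ
  have hcl : ∀ x, IsClassFunction C fun v => χ (f (x, v)) := fun x v w => by
    have := Char.isCharacter_isClassFunction (Char.isCharacter_comp hχ f) (x, v) (1, w)
    simpa using this
  have hsum : ∀ x : zpowers a, x ≠ 1 → ∑ ξ, Complex.normSq (c ξ x) = 1 := by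
    intro x hx
    have h := Char.classInner_eq_sum_mul_conj (b := fun v => χ (f (x, v))) (hcl x)
    have hne : (x : G) ≠ 1 := fun e => hx (Subtype.ext e)
    have e1 : classInner (fun v : C => χ (f (x, v))) (fun v : C => χ (f (x, v))) = 1 := by
      simp only [classInner, Complex.mul_conj, hf, ← Complex.ofReal_sum, hnorm x x.2 hne, Complex.ofReal_natCast]
      exact inv_mul_cancel₀ (Nat.cast_ne_zero.2 Nat.card_pos.ne')
    rw [e1] at h
    simp only [Complex.mul_conj, ← Complex.ofReal_sum] at h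
    exact_mod_cast h.symm
  set T : IrrCharacter C → ℝ := fun ξ => ∑ x ∈ Finset.univ.erase (1 : zpowers a), Complex.normSq (c ξ x) with hT
  have hcardA : Nat.card (zpowers a) = p := by rw [Nat.card_zpowers, ha]
  have hTsum : ∑ ξ, T ξ = (p : ℝ) - 1 := by
    simp only [hT]
    rw [Finset.sum_comm, Finset.sum_congr rfl fun x hx => hsum x (Finset.mem_erase.1 hx).1, Finset.sum_const,
      Finset.card_erase_of_mem (Finset.mem_univ _), Finset.card_univ, ← Nat.card_eq_fintype_card, hcardA, nsmul_one,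
      Nat.cast_sub hp.out.one_lt.le, Nat.cast_one]
  have hdi : ∀ ξ, T ξ = 0 ∨ (p : ℝ) - 1 ≤ T ξ := by
    intro ξ
    rcases norm_dichotomy hcardA (hch ξ) with h | h
    · left
      exact Finset.sum_eq_zero fun x hx => by rw [h x (Finset.mem_erase.1 hx).1, map_zero]
    · right
      rw [hT]
      rw [← Finset.add_sum_erase _ _ (Finset.mem_univ (1 : zpowers a))] at h
      linarith
  have hp1 : (0 : ℝ) < (p : ℝ) - 1 := by
    have : (1 : ℝ) < p := by exact_mod_cast hp.out.one_lt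
    linarith
  have hT0 : ∀ ξ, 0 ≤ T ξ := fun ξ => Finset.sum_nonneg fun _ _ => Complex.normSq_nonneg _
  obtain ⟨ξ₀, -, hξ₀⟩ := Finset.exists_ne_zero_of_sum_ne_zero (hTsum.trans_ne hp1.ne')
  have hothers : ∀ ξ, ξ ≠ ξ₀ → T ξ = 0 := fun ξ hξ => by
    rcases hdi ξ with h | h
    · exact h
    have h2 := (hdi ξ₀).resolve_left hξ₀
    have h3 := Finset.add_le_sum (s := Finset.univ) (fun i _ => hT0 i) (Finset.mem_univ ξ) (Finset.mem_univ ξ₀) hξ
    rw [hTsum] at h3
    linarith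
  refine ⟨ξ₀, fun x hxA hx => ?_⟩
  set x' : zpowers a := ⟨x, hxA⟩ with hx'
  have hx1 : x' ≠ 1 := fun e => hx (congrArg Subtype.val e)
  have hz : ∀ ξ, ξ ≠ ξ₀ → c ξ x' = 0 := fun ξ hξ => Complex.normSq_eq_zero.1
    ((Finset.sum_eq_zero_iff_of_nonneg fun _ _ => Complex.normSq_nonneg _).1 (hothers ξ hξ) x'
      (Finset.mem_erase.2 ⟨hx1, Finset.mem_univ _⟩))
  refine ⟨c ξ₀ x', fun h0 => ?_, fun v => ?_⟩
  · have h := hsum x' hx1
    rw [Finset.sum_eq_zero fun ξ _ => ?_] at h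
    · exact zero_ne_one h
    · by_cases e : ξ = ξ₀
      · rw [e, h0, map_zero]
      · rw [hz ξ e, map_zero]
  · have h := congrFun (Char.eq_sum_classInner_smul (hcl x')) v
    rw [Finset.sum_apply, Finset.sum_eq_single ξ₀ (fun ξ _ hξ => by
      rw [Pi.smul_apply, show classInner (fun v => χ (f (x', v))) (ξ : C → ℂ) = 0 from hz ξ hξ, zero_smul])
      (fun hn => absurd (Finset.mem_univ _) hn), Pi.smul_apply, smul_eq_mul] at h
    simpa [hf, hx', hc] using h

/-- An invariant irreducible character kills a normal subgroup without fixed points. -/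
theorem kills {C : Type u} [Group C] [Finite C] {A : Type u} [Group A] (hA : IsPGroup p A) (φ : A →* MulAut C)
    (hC : ¬ p ∣ Nat.card C) (T : Subgroup C) [T.Normal] (hT : ∀ a, ∀ t ∈ T, φ a t ∈ T)
    (hfix : ∀ t ∈ T, (∀ a, φ a t = t) → t = 1) (ξ : IrrCharacter C)
    (hξ : ∀ a v, (ξ : C → ℂ) (φ a v) = (ξ : C → ℂ) v) {t : C} (ht : t ∈ T) :
    (ξ : C → ℂ) t = (ξ : C → ℂ) 1 := by
  classical
  haveI := Fintype.ofFinite C
  haveI := Fintype.ofFinite T
  haveI : NeZero p := ⟨hp.out.ne_zero⟩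
  have h := GlauberCorr.sum_congr_sum_fixedSubgroup (GlauberCorr.subAut φ T hT) hA (⊥ : Subgroup T)
    (fun k => ?_) (fun k : T => (ξ : C → ℂ) k) (fun k => GlauberCorr.irr_isIntegral ξ _) (fun a k => hξ a k)
  swap
  · rw [Subgroup.mem_bot]
    refine ⟨fun e a => by rw [e, map_one], fun e => Subtype.ext (hfix k k.2 fun a => congrArg Subtype.val (e a))⟩
  obtain ⟨d, -, hd, hdvd⟩ := Char.irr_degree_dvd_card ξ.2
  rw [Fintype.sum_subsingleton _ (1 : (⊥ : Subgroup T))] at h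
  have hne : ∑ k : T, (ξ : C → ℂ) k ≠ 0 := fun e => by
    rw [e, OneMemClass.coe_one, OneMemClass.coe_one, hd] at h
    exact hC ((GlauberCorr.Congr.nat_dvd h.symm).trans hdvd)
  have hci : classInner (indFun T fun _ => (1 : ℂ)) (ξ : C → ℂ) ≠ 0 := by
    rw [CharInd.classInner_indFun_left T _ (Char.irr_isClassFunction ξ.2), classInner]
    refine mul_ne_zero (inv_ne_zero (Nat.cast_ne_zero.2 Nat.card_pos.ne')) ?_
    simp only [one_mul, ← map_sum]
    exact (map_ne_zero _).2 hne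
  simpa using CharExt.inv_of_constituent T ξ.2 hci ⟨t, ht⟩ 1

omit hp in
/-- Conjugates of `H` under a subgroup containing it generate a group in which they are conjugate. -/
theorem normalClosure_top (hH : IsPGroup p H) [Fact p.Prime] (hQ : IsClosed' p H) {M : Subgroup G} (hHM : H ≤ M) :
    normalClosure ((H.subgroupOf ((normalClosure (H.subgroupOf M : Set M)).map M.subtype) :
      Subgroup ↥((normalClosure (H.subgroupOf M : Set M)).map M.subtype)) :
        Set ↥((normalClosure (H.subgroupOf M : Set M)).map M.subtype)) = ⊤ := by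
  set L := (normalClosure (H.subgroupOf M : Set M)).map M.subtype with hL
  have hHL : H ≤ L := fun x hx => ⟨⟨x, hHM hx⟩, subset_normalClosure hx, rfl⟩
  set N' := (normalClosure (H.subgroupOf L : Set L)).map L.subtype with hN'
  have hHN : H ≤ N' := fun x hx => ⟨⟨x, hHL hx⟩, subset_normalClosure hx, rfl⟩
  have hle : normalClosure (H.subgroupOf M : Set M) ≤ N'.comap M.subtype := by
    unfold Subgroup.normalClosure
    rw [closure_le]
    intro y hy
    obtain ⟨x, hx, hxy⟩ := Group.mem_conjugatesOfSet_iff.1 hy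
    obtain ⟨m, hm⟩ := isConj_iff.1 hxy
    have hconj : ∀ z ∈ H, (m : G) * z * (m : G)⁻¹ ∈ L := fun z hz =>
      ⟨m * ⟨z, hHM hz⟩ * m⁻¹, Subgroup.Normal.conj_mem normalClosure_normal (⟨z, hHM hz⟩ : M)
        (subset_normalClosure hz) m, rfl⟩
    obtain ⟨K, hK, hn, hg, -⟩ := hQ (m : G)
    have hn' : H ≤ normalizer ((K ⊓ L : Subgroup G) : Set G) := fun z hz => mem_normalizer_of_conj_mem fun k hk =>
      ⟨(mem_normalizer_iff.1 (hn hz) k).1 hk.1, L.mul_mem (L.mul_mem (hHL hz) hk.2) (L.inv_mem (hHL hz))⟩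
    obtain ⟨k, hk, hks⟩ := exists_conj_mem hH (K := K ⊓ L) (fun hd => hK (hd.trans (card_dvd_of_le inf_le_left)))
      hn' (hH.map _) (S := H.map (MulAut.conj (m : G)).toMonoidHom) (by
        rintro _ ⟨z, hz, rfl⟩
        obtain ⟨k, hk, u, hu, e⟩ := exists_mul hn (hg z hz)
        show (m : G) * z * (m : G)⁻¹ ∈ _
        rw [← e]
        refine mul_mem (mem_sup_left ⟨hk, ?_⟩) (mem_sup_right hu)
        rw [show k = ((m : G) * z * (m : G)⁻¹) * u⁻¹ by rw [← e]; group]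
        exact L.mul_mem (hconj z hz) (L.inv_mem (hHL hu)))
    have h2 := hks _ (⟨(x : G), hx, rfl⟩ : (MulAut.conj (m : G)).toMonoidHom x ∈ H.map (MulAut.conj (m : G)).toMonoidHom)
    rw [SetLike.mem_coe, mem_comap, ← hm]
    show (m : G) * x * (m : G)⁻¹ ∈ N'
    refine ⟨⟨k, hk.2⟩ * ⟨_, hHL h2⟩ * ⟨k, hk.2⟩⁻¹, Subgroup.Normal.conj_mem normalClosure_normal (⟨_, hHL h2⟩ : L)
      (subset_normalClosure (show (⟨_, hHL h2⟩ : L) ∈ (H.subgroupOf L : Set L) from h2)) ⟨k, hk.2⟩, ?_⟩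
    show k * (k⁻¹ * ((m : G) * x * (m : G)⁻¹) * k) * k⁻¹ = _
    group
  refine eq_top_iff.2 fun y _ => ?_
  obtain ⟨z, hz, hzy⟩ := y.2
  obtain ⟨w, hw, hwz⟩ := hle hz
  have : w = y := Subtype.ext (hwz.trans hzy)
  exact this ▸ hw

set_option maxHeartbeats 800000 in
/-- An abelian closed subgroup generating the group has no fixed points on a normal `p'`-complement. -/
theorem fix (hp2 : p ≠ 2) : ∀ (n : ℕ) (G : Type u) [Group G] [Finite G], Nat.card G = n →
    ∀ H : Subgroup G, IsPGroup p H → (∀ x ∈ H, ∀ y ∈ H, x * y = y * x) → IsClosed' p H →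
    ∀ O : Subgroup G, O.Normal → ¬ p ∣ Nat.card O → O ⊔ H = ⊤ → normalClosure (H : Set G) = ⊤ →
      ∀ o ∈ O, (∀ x ∈ H, o * x = x * o) → o = 1 := by
  intro n
  induction n using Nat.strong_induction_on with
  | _ n ih =>
  intro G _ _ hn H hH hcm hQ O hOn hO hOH hgen o₀ ho₀ hfix
  subst hn
  classical
  haveI := hOn
  haveI := Fintype.ofFinite G
  haveI := Fintype.ofFinite O
  by_contra hne
  -- a quotient
  have hquot : ∀ (N : Subgroup G) [N.Normal], N ≠ ⊥ → IsClosed' p (H.map (QuotientGroup.mk' N)) → o₀ ∈ N := by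
    intro N _ hN hQ'
    have hs := QuotientGroup.mk'_surjective N
    refine (QuotientGroup.eq_one_iff o₀).1 (ih _ (quotient_card_lt hN) (G ⧸ N) rfl _ (hH.map _) ?_ hQ'
      (O.map (QuotientGroup.mk' N)) (hOn.map _ hs) (fun hd => hO (hd.trans (card_map_dvd O _))) ?_ ?_ _
      (mem_map_of_mem _ ho₀) ?_)
    · rintro _ ⟨x, hx, rfl⟩ _ ⟨y, hy, rfl⟩
      rw [← map_mul, ← map_mul, hcm x hx y hy]
    · rw [← Subgroup.map_sup, hOH, Subgroup.map_top_of_surjective _ hs]
    · rw [coe_map, ← Subgroup.map_normalClosure _ _ hs, hgen, Subgroup.map_top_of_surjective _ hs]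
    · rintro _ ⟨x, hx, rfl⟩
      show (QuotientGroup.mk' N) o₀ * _ = _ * (QuotientGroup.mk' N) o₀
      rw [← map_mul, ← map_mul, hfix x hx]
  have hZ : ∀ x ∈ H, x ∈ center G → x = 1 := by
    intro x hx hxc
    by_contra hx1
    set Z := H ⊓ center G with hZdef
    haveI : Z.Normal := ⟨fun a ha c => by
      rw [Subgroup.mem_center_iff.1 ha.2 c, mul_inv_cancel_right]; exact ha⟩
    have h := hquot Z (fun e => hx1 (by rw [← mem_bot, ← e]; exact ⟨hx, hxc⟩))
      (closed_map_central hH hQ _ (QuotientGroup.mk'_surjective Z)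
        (by rw [QuotientGroup.ker_mk']; exact inf_le_left))
    exact hne (eq_one_of_mem hO hH ho₀ h.1)
  obtain ⟨θ, hθinv, hθo⟩ := exists_theta hH O hO ⟨o₀, ho₀⟩ (fun e => hne (congrArg Subtype.val e))
    fun x hx => by
      show x * o₀ * x⁻¹ = o₀
      rw [← hfix x hx, mul_inv_cancel_right]
  obtain ⟨χ, hχ⟩ := exists_extension hH O hO hOH θ hθinv
  have hchar := Char.isCharacter_of_irr χ.2
  have hcl := Char.irr_isClassFunction χ.2
  obtain ⟨Kχ, hKn, hKχ⟩ := Char.isCharacter_exists_kernel hchar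
  have hker : ∀ o ∈ O, (χ : G → ℂ) o = (χ : G → ℂ) 1 → o = 1 := by
    intro o ho he
    by_contra h1
    haveI := hKn
    have hN : Kχ ⊓ O ≠ ⊥ := fun e => h1 (by rw [← mem_bot, ← e]; exact ⟨(hKχ o).2 he, ho⟩)
    have h := hquot (Kχ ⊓ O) hN (closed_map_coprime hH hQ _ (QuotientGroup.mk'_surjective _) (by
      rw [QuotientGroup.ker_mk']
      exact fun hd => hO (hd.trans (card_dvd_of_le inf_le_right))))
    refine hθo ?_
    rw [← hχ, ← hχ]
    exact (hKχ o₀).1 h.1
  -- an element of order `p`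
  have hHb : H ≠ ⊥ := fun e => by
    rw [e, coe_bot] at hgen
    have : normalClosure ({1} : Set G) ≤ ⊥ := normalClosure_le_normal (by simp)
    rw [hgen] at this
    exact hne (mem_bot.1 (this (mem_top o₀)))
  obtain ⟨⟨a, haH⟩, ha'⟩ := exists_prime_orderOf_dvd_card' p (G := H) (by
    obtain ⟨k, hk⟩ := IsPGroup.iff_card.1 hH
    rcases k with _ | k
    · exact absurd (card_eq_one.1 (by simpa using hk)) hHb
    · rw [hk]; exact dvd_pow_self p k.succ_ne_zero)
  have hao : orderOf a = p := by rw [← ha', Subgroup.orderOf_mk]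
  have ha1 : a ≠ 1 := fun e => by rw [e, orderOf_one] at hao; exact hp.out.one_lt.ne hao
  have hap : a ^ p ^ 1 = 1 := by rw [pow_one, ← hao, pow_orderOf_eq_one]
  set M := centralizer ({a} : Set G) with hM
  have hHM : H ≤ M := fun x hx => mem_centralizer_singleton_iff.2 (hcm x hx a haH)
  have hMt : M ≠ ⊤ := fun e => ha1 (hZ a haH (Subgroup.mem_center_iff.2 fun y =>
    mem_centralizer_singleton_iff.1 (e ▸ mem_top y : y ∈ M)))
  set L := (normalClosure (H.subgroupOf M : Set M)).map M.subtype with hL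
  have hLM : L ≤ M := map_subtype_le _
  have hHL : H ≤ L := fun x hx => ⟨⟨x, hHM hx⟩, subset_normalClosure hx, rfl⟩
  have hLn : ∀ m ∈ M, ∀ y ∈ L, m * y * m⁻¹ ∈ L := by
    rintro m hm _ ⟨y, hy, rfl⟩
    exact ⟨⟨m, hm⟩ * y * ⟨m, hm⟩⁻¹, normalClosure_normal.conj_mem y hy _, rfl⟩
  have hlt : Nat.card L < Nat.card G := lt_of_le_of_ne (Subgroup.card_le_card_group _) fun e =>
    hMt (top_le_iff.1 ((Subgroup.eq_top_of_card_eq _ e).ge.trans hLM))
  have hTfix : ∀ t ∈ L, t ∈ O → (∀ x ∈ H, t * x = x * t) → t = 1 := by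
    intro t htL htO htc
    refine congrArg Subtype.val (ih _ hlt L rfl (H.subgroupOf L) (hH.of_equiv (subgroupOfEquivOfLe hHL).symm)
      (fun x hx y hy => Subtype.ext (hcm x hx y hy)) (closed_subgroupOf hQ hHL) (O.subgroupOf L) inferInstance
      ?_ ?_ (normalClosure_top hH hQ hHM) ⟨t, htL⟩ htO fun x hx => Subtype.ext (htc x hx))
    · intro hd
      refine hO (hd.trans ?_)
      rw [← card_map_of_injective L.subtype_injective, subgroupOf_map_subtype]
      exact card_dvd_of_le inf_le_left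
    · refine eq_top_iff.2 fun g _ => ?_
      obtain ⟨o, ho, h, hh, e⟩ := exists_mul le_normalizer_of_normal
        (show (g : G) ∈ O ⊔ H by rw [hOH]; exact mem_top _)
      have hoL : o ∈ L := by
        rw [show o = (g : G) * h⁻¹ by rw [← e]; group]
        exact L.mul_mem g.2 (L.inv_mem (hHL hh))
      rw [show g = (⟨o, hoL⟩ : L) * ⟨h, hHL hh⟩ from Subtype.ext e.symm]
      exact mul_mem (mem_sup_left (show (⟨o, hoL⟩ : L) ∈ O.subgroupOf L from ho))
        (mem_sup_right (show (⟨h, hHL hh⟩ : L) ∈ H.subgroupOf L from hh))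
  -- the norm on cosets
  set C := cK O a with hC
  haveI := Fintype.ofFinite C
  have hCeq : ∀ x ∈ zpowers a, x ≠ 1 → cK O x = C := by
    intro x hx hx1
    have hz : zpowers x = zpowers a := Subgroup.eq_of_le_of_card_ge (zpowers_le.2 hx) (by
      rw [Nat.card_zpowers, Nat.card_zpowers, hao]
      rcases (Nat.dvd_prime hp.out).1 (hao ▸ orderOf_dvd_of_mem_zpowers hx) with h | h
      · exact absurd (orderOf_eq_one_iff.1 h) hx1
      · rw [h])
    rw [hC, cK, cK, ← centralizer_closure, ← zpowers_eq_closure, hz, zpowers_eq_closure, centralizer_closure]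
  have hnorm : ∀ x ∈ zpowers a, x ≠ 1 →
      ∑ v : C, Complex.normSq ((χ : G → ℂ) ((v : G) * x)) = (Nat.card C : ℝ) := by
    intro x hx hx1
    haveI := Fintype.ofFinite (cK O x)
    have hxH : x ∈ H := zpowers_le.2 haH hx
    obtain ⟨k, hk⟩ := hH ⟨x, hxH⟩
    have h := sum_coset hO (show x ^ p ^ k = 1 by simpa using congrArg Subtype.val hk) (le_normalizer_of_normal
      (H := O) (show x ∈ (⊤ : Subgroup G) from mem_top x))
      (fun g => ((Complex.normSq ((χ : G → ℂ) g) : ℝ) : ℂ)) (fun g h => by rw [hcl g h])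
    rw [← Complex.ofReal_sum, sum_coset_norm O θ χ hχ x, ← Complex.ofReal_sum, ← Complex.ofReal_natCast,
      ← Complex.ofReal_natCast, ← Complex.ofReal_mul, ← Complex.ofReal_mul, Complex.ofReal_inj, mul_comm] at h
    have h' := mul_left_cancel₀ (Nat.cast_ne_zero.2 Nat.card_pos.ne') h
    have e := hCeq x hx hx1
    rw [Fintype.sum_equiv (MulEquiv.subgroupCongr e.symm).toEquiv
      (fun v : C => Complex.normSq ((χ : G → ℂ) ((v : G) * x))) (fun v : cK O x =>
      Complex.normSq ((χ : G → ℂ) ((v : G) * x))) (fun _ => rfl),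
      ← Nat.card_congr (MulEquiv.subgroupCongr e).toEquiv]
    exact h'.symm
  obtain ⟨ξ, hξ⟩ := exists_single hchar hao C inf_le_right hnorm
  have hHC : ∀ h ∈ H, ∀ v ∈ C, h * v * h⁻¹ ∈ C := fun h hh v hv => ⟨hOn.conj_mem v hv.1 h,
    M.mul_mem (M.mul_mem (hHM hh) hv.2) (M.inv_mem (hHM hh))⟩
  let φ : H →* MulAut C := GlauberCorr.subAut
    ((MulAut.conj).comp H.subtype) C fun h v hv => hHC h h.2 v hv
  have hξinv : ∀ (h : H) (v : C), (ξ : C → ℂ) (φ h v) = (ξ : C → ℂ) v := by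
    intro h v
    obtain ⟨c, hc, hcv⟩ := hξ a (mem_zpowers a) ha1
    apply mul_left_cancel₀ hc
    rw [← hcv, ← hcv]
    show (χ : G → ℂ) ((h : G) * v * (h : G)⁻¹ * a) = _
    rw [show (h : G) * v * (h : G)⁻¹ * a = h * (v * ((h : G)⁻¹ * a * h)) * (h : G)⁻¹ by group, hcl,
      show (h : G)⁻¹ * a * h = a by
        rw [hcm _ (H.inv_mem h.2) a haH, mul_assoc, inv_mul_cancel, mul_one]]
  haveI hTn : (L.subgroupOf C).Normal := ⟨fun t ht v => hLn _ v.2.2 _ ht⟩
  have hTker : ∀ t : C, (t : G) ∈ L → (ξ : C → ℂ) t = (ξ : C → ℂ) 1 := fun t ht =>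
    kills hH φ (fun hd => hO (hd.trans (card_dvd_of_le inf_le_left))) (L.subgroupOf C)
      (fun h t ht => hLn _ (hHM h.2) _ ht)
      (fun t htL hc => Subtype.ext (hTfix _ htL t.2.1 fun x hx => by
        have e : x * (t : G) * x⁻¹ = t := congrArg Subtype.val (hc ⟨x, hx⟩)
        exact (mul_inv_eq_iff_eq_mul.1 e).symm)) ξ hξinv ht
  -- values on cosets
  have hval : ∀ x ∈ zpowers a, x ≠ 1 → ∀ K : Subgroup G, ¬ p ∣ Nat.card K → H ≤ normalizer (K : Set G) →
      (∀ k ∈ K, (∀ x ∈ H, k * x = x * k) → k = 1) → ∀ k ∈ K, (χ : G → ℂ) (k * x) = (χ : G → ℂ) x := by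
    intro x hx hx1 K hK hKn hKfix k hk
    have hxH : x ∈ H := zpowers_le.2 haH hx
    obtain ⟨i, hi⟩ := hH ⟨x, hxH⟩
    obtain ⟨y, -, v, hv, hvx, hyv⟩ := exists_conj_commute hK (show x ^ p ^ i = 1 by
      simpa using congrArg Subtype.val hi) (hKn hxH) hk
    have hKO : K ≤ O := fun z hz => mem_of_coprime le_normalizer_of_normal hH
      (show z ∈ O ⊔ H by rw [hOH]; exact mem_top z) (not_dvd_orderOf_of_mem hK hz)
    have hvC : v ∈ C := by
      rw [← hCeq x hx hx1]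
      exact ⟨hKO hv, mem_centralizer_singleton_iff.2 hvx⟩
    have hvL : v ∈ L := by
      set W := K ⊓ L with hW
      have hWn : H ≤ normalizer (W : Set G) := fun z hz => mem_normalizer_of_conj_mem fun w hw =>
        ⟨(mem_normalizer_iff.1 (hKn hz) w).1 hw.1, hLn _ (hHM hz) _ hw.2⟩
      obtain ⟨w, hw, hwn⟩ := exists_normalizer_of_conj hH (K := W)
        (fun hd => hK (hd.trans (card_dvd_of_le inf_le_left))) hWn (g := v) (fun z hz => by
          rw [show v * z * v⁻¹ = (v * z * v⁻¹ * z⁻¹) * z by group]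
          refine mul_mem (mem_sup_left ⟨?_, L.mul_mem (hLn _ hvC.2 _ (hHL hz)) (L.inv_mem (hHL hz))⟩)
            (mem_sup_right hz)
          rw [show v * z * v⁻¹ * z⁻¹ = v * (z * v⁻¹ * z⁻¹) by group]
          exact K.mul_mem hv ((mem_normalizer_iff.1 (hKn hz) _).1 (K.inv_mem hv)))
      have hmK : w⁻¹ * v ∈ K := K.mul_mem (K.inv_mem hw.1) hv
      have h1 : w⁻¹ * v = 1 := hKfix _ hmK fun z hz => by
        set m := w⁻¹ * v with hmdef
        have hK' : m * z * m⁻¹ * z⁻¹ ∈ K := by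
          rw [show m * z * m⁻¹ * z⁻¹ = m * (z * m⁻¹ * z⁻¹) by group]
          exact K.mul_mem hmK ((mem_normalizer_iff.1 (hKn hz) _).1 (K.inv_mem hmK))
        have hH' : m * z * m⁻¹ * z⁻¹ ∈ H := H.mul_mem ((mem_normalizer_iff.1 hwn z).1 hz) (H.inv_mem hz)
        exact mul_inv_eq_iff_eq_mul.1 (mul_inv_eq_one.1 (eq_one_of_mem hK hH hK' hH'))
      exact inv_mul_eq_one.1 h1 ▸ hw.2
    obtain ⟨c, -, hcv⟩ := hξ x hx hx1
    rw [← hyv, hcl]
    have e := hcv ⟨v, hvC⟩
    rw [hTker ⟨v, hvC⟩ hvL, ← hcv 1, OneMemClass.coe_one, one_mul] at e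
    exact e
  -- the powers of `a`
  have hG : (Nat.card G : ℂ) ≠ 0 := Nat.cast_ne_zero.mpr Nat.card_pos.ne'
  have hmult : ∀ i : ℕ, a ^ i ≠ 1 → a ^ (i + i) ≠ 1 →
      (χ : G → ℂ) (a ^ i) * (χ : G → ℂ) (a ^ i) = (χ : G → ℂ) 1 * (χ : G → ℂ) (a ^ (i + i)) := by
    intro i hi hii
    apply mul_left_cancel₀ hG
    rw [← mul_assoc, ← Brauer.irr_conj_sum χ.2 (a ^ i) (a ^ i), ← mul_assoc, mul_comm ((Nat.card G : ℂ)),
      mul_assoc]
    congr 1
    rw [Finset.sum_congr rfl (g := fun _ => (χ : G → ℂ) (a ^ (i + i))) fun g _ => ?_, Finset.sum_const,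
      Finset.card_univ, nsmul_eq_mul, ← Nat.card_eq_fintype_card]
    rw [Char.isClassFunction_mul_comm hcl]
    obtain ⟨K, hK, hn, hg, hKfix⟩ := hQ g
    set u := a ^ i with hu
    have huH : u ∈ H := H.pow_mem haH i
    have hmO : g * u * g⁻¹ * u⁻¹ ∈ O := by
      obtain ⟨o, ho, h, hh, rfl⟩ := exists_mul le_normalizer_of_normal (show g ∈ O ⊔ H by rw [hOH]; exact mem_top g)
      rw [show o * h * u * (o * h)⁻¹ * u⁻¹ = o * ((h * u * h⁻¹) * o⁻¹ * u⁻¹) by group,
        hcm h hh u huH, mul_inv_cancel_right]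
      exact O.mul_mem ho (hOn.conj_mem _ (O.inv_mem ho) u)
    have hmK : g * u * g⁻¹ * u⁻¹ ∈ K := mem_of_coprime hn hH
      ((K ⊔ H).mul_mem (hg u huH) (mem_sup_right (H.inv_mem huH))) (not_dvd_orderOf_of_mem hO hmO)
    rw [show u * (g * u * g⁻¹) = u * (g * u * g⁻¹ * u⁻¹) * u⁻¹ * (u * u) by group, ← pow_add]
    exact hval _ (pow_mem (mem_zpowers a) _) hii K hK hn hKfix _ ((mem_normalizer_iff.1 (hn huH) _).1 hmK)
  obtain ⟨d, hd0, hd⟩ := Char.irr_one_pos χ.2
  have hcop : Nat.Coprime 2 (orderOf a) := by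
    rw [hao]; exact (Nat.coprime_primes Nat.prime_two hp.out).2 (Ne.symm hp2)
  have hne2 : ∀ m : ℕ, a ^ (2 ^ m) ≠ 1 := fun m e => ha1 (orderOf_eq_one_iff.1
    (Nat.eq_one_of_dvd_coprimes (hcop.pow_left m) (orderOf_dvd_of_pow_eq_one e) dvd_rfl))
  have hχa : (χ : G → ℂ) a ≠ 0 := by
    obtain ⟨c, hc, hcv⟩ := hξ a (mem_zpowers a) ha1
    have h1 := hcv 1
    rw [OneMemClass.coe_one, one_mul] at h1
    rw [h1]
    exact mul_ne_zero hc (Char.irr_one_ne_zero ξ.2)
  have hna : ‖(χ : G → ℂ) a‖ = ((χ : G → ℂ) 1).re := norm_eq_of_squares hd0 hd hχa hcop fun m => by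
    have h := hmult (2 ^ m) (hne2 m) (by rw [← two_mul, ← pow_succ']; exact hne2 _)
    rw [← two_mul, ← pow_succ', hd] at h
    exact h
  obtain ⟨ω, hω, hmul⟩ := Char.isCharacter_mul_of_norm_eq hchar hna
  refine ha1 (hZ a haH (Subgroup.mem_center_iff.2 fun g => ?_))
  have hcO : ⁅a, g⁆ ∈ O := by
    obtain ⟨o, ho, h, hh, rfl⟩ := exists_mul le_normalizer_of_normal (show g ∈ O ⊔ H by rw [hOH]; exact mem_top g)
    rw [show ⁅a, o * h⁆ = a * o * (h * a⁻¹ * h⁻¹) * o⁻¹ by simp only [commutatorElement_def]; group,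
      hcm h hh a⁻¹ (H.inv_mem haH), mul_inv_cancel_right]
    exact O.mul_mem (hOn.conj_mem o ho a) (O.inv_mem ho)
  have h1 := hker _ hcO (by
    rw [show ⁅a, g⁆ = a * (g * a⁻¹ * g⁻¹) by simp only [commutatorElement_def]; group,
      (hmul _).1, hcl a⁻¹ g, ← (hmul _).1, mul_inv_cancel])
  rw [commutatorElement_eq_one_iff_mul_comm] at h1
  exact h1.symm

end Cfsg.Agent.LAE62.PClosed
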