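import Cfsg.Agent.LAE62.PClosed.Core
import Cfsg.Agent.Brauer.SectionColumns
import Cfsg.Agent.PGroup.Basic
import Mathlib.FieldTheory.Finite.Basic

/-!
A closed abelian subgroup of odd prime power order is normal modulo the `p'`-core.
-/

set_option autoImplicit false

open Subgroup

namespace Cfsg.Agent.LAE62.PClosed

open Cfsg
open scoped ComplexConjugate commutatorElement

universe u

variable {G : Type u} [Group G] [Finite G] {H : Subgroup G} {p : ℕ} [hp : Fact p.Prime]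

/-- The factorization property. -/
def Factor (p : ℕ) (G : Type u) [Group G] : Prop :=
  ∀ H : Subgroup G, IsPGroup p H → (∀ x ∈ H, ∀ y ∈ H, x * y = y * x) → IsClosed' p H →
    normalizer (H : Set G) ⊔ pPrimeCore p G = ⊤

theorem local_of_factor (hH : IsPGroup p H) (hcm : ∀ x ∈ H, ∀ y ∈ H, x * y = y * x) (hQ : IsClosed' p H)
    (hZ : ∀ x ∈ H, x ∈ center G → x = 1) (ih : ∀ C : Subgroup G, C ≠ ⊤ → Factor p C) : Local p H := by
  intro u hu hu1 W hW hWn hWC hWfix w hw
  set C := centralizer ({u} : Set G) with hC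
  have hCt : C ≠ ⊤ := fun e => hu1 (hZ u hu (Subgroup.mem_center_iff.2 fun y =>
    mem_centralizer_singleton_iff.1 (e ▸ mem_top y : y ∈ C)))
  have hHC : H ≤ C := fun x hx => mem_centralizer_singleton_iff.2 (hcm x hx u hu)
  have hH' : IsPGroup p (H.subgroupOf C) := hH.of_equiv (subgroupOfEquivOfLe hHC).symm
  have hfac := ih C hCt (H.subgroupOf C) hH' (fun a ha b hb => Subtype.ext (hcm a ha b hb))
    (closed_subgroupOf hQ hHC)
  set O := pPrimeCore p C with hO
  have hOp : ¬ p ∣ Nat.card O := Cores.not_dvd_card_pPrimeCore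
  set HO := O ⊔ H.subgroupOf C with hHO
  haveI hHOn : HO.Normal := by
    refine normalizer_eq_top_iff.1 (eq_top_iff.2 (hfac ▸ sup_le ?_ ?_))
    · intro n hn
      refine mem_normalizer_of_conj_mem fun x hx => ?_
      obtain ⟨o, ho, h, hh, rfl⟩ := exists_mul le_normalizer_of_normal hx
      rw [show n * (o * h) * n⁻¹ = (n * o * n⁻¹) * (n * h * n⁻¹) by group]
      exact mul_mem (mem_sup_left ((inferInstance : O.Normal).conj_mem o ho n))
        (mem_sup_right ((mem_normalizer_iff.1 hn h).1 hh))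
    · exact le_sup_left.trans le_normalizer
  set W' := W.subgroupOf C with hW'
  have hW'p : ¬ p ∣ Nat.card W' := by rwa [hW', Nat.card_congr (subgroupOfEquivOfLe hWC).toEquiv]
  have hW'n : H.subgroupOf C ≤ normalizer (W' : Set C) := fun x hx => by
    rw [mem_normalizer_iff]
    intro y
    exact mem_normalizer_iff.1 (hWn hx) y
  set W₀ := W' ⊓ O with hW₀
  have hW₀n : H.subgroupOf C ≤ normalizer (W₀ : Set C) := fun x hx =>
    mem_normalizer_of_conj_mem fun y hy =>
      ⟨(mem_normalizer_iff.1 (hW'n hx) y).1 hy.1, (inferInstance : O.Normal).conj_mem y hy.2 x⟩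
  set w' : C := ⟨w, hWC hw⟩ with hw'
  obtain ⟨k, hk, hkn⟩ := exists_normalizer_of_conj hH' (K := W₀)
    (fun hd => hW'p (hd.trans (card_dvd_of_le inf_le_left))) hW₀n (g := w') (fun x hx => by
      rw [show w' * x * w'⁻¹ = (w' * x * w'⁻¹ * x⁻¹) * x by group]
      refine mul_mem (mem_sup_left ?_) (mem_sup_right hx)
      have h1 : w' * x * w'⁻¹ * x⁻¹ ∈ W' := by
        rw [show w' * x * w'⁻¹ * x⁻¹ = w' * (x * w'⁻¹ * x⁻¹) by group]
        exact W'.mul_mem hw ((mem_normalizer_iff.1 (hW'n hx) _).1 (W'.inv_mem hw))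
      exact ⟨h1, mem_of_coprime le_normalizer_of_normal hH'
        (HO.mul_mem (hHOn.conj_mem x (mem_sup_right hx) w') (HO.inv_mem (mem_sup_right hx)))
        (not_dvd_orderOf_of_mem hW'p h1)⟩)
  have hm : k⁻¹ * w' ∈ W' := W'.mul_mem (W'.inv_mem hk.1) hw
  have h1 : ((k⁻¹ * w' : C) : G) = 1 := hWfix _ hm fun x hx => by
    set m := k⁻¹ * w' with hmdef
    set x' : C := ⟨x, hHC hx⟩ with hx'
    have hK' : m * x' * m⁻¹ * x'⁻¹ ∈ W' := by
      rw [show m * x' * m⁻¹ * x'⁻¹ = m * (x' * m⁻¹ * x'⁻¹) by group]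
      exact W'.mul_mem hm ((mem_normalizer_iff.1 (hW'n hx) _).1 (W'.inv_mem hm))
    have hH'' : m * x' * m⁻¹ * x'⁻¹ ∈ H.subgroupOf C :=
      mul_mem ((mem_normalizer_iff.1 hkn x').1 hx) (inv_mem (show x' ∈ H.subgroupOf C from hx))
    exact congrArg Subtype.val
      (mul_inv_eq_iff_eq_mul.1 (mul_inv_eq_one.1 (eq_one_of_mem hW'p hH' hK' hH'')))
  have h2 : k = w' := inv_mul_eq_one.1 (Subtype.ext h1)
  exact ⟨w', h2 ▸ hk.2, rfl⟩

/-- A central `p`-subgroup is the whole of a normal subgroup in which it has index prime to `p`. -/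
theorem eq_of_central (hO : pPrimeCore p G = ⊥) {Z K : Subgroup G} [K.Normal] (hZ : IsPGroup p Z)
    (hZc : Z ≤ center G) (hZK : Z ≤ K) (hidx : ¬ p ∣ (Z.subgroupOf K).index) : K ≤ Z := by
  have hZn : (Z.subgroupOf K).Normal := ⟨fun a ha b => by
    show (b : G) * (a : G) * (b : G)⁻¹ ∈ Z
    have ha' : (a : G) ∈ Z := ha
    rw [Subgroup.mem_center_iff.1 (hZc ha') b, mul_inv_cancel_right]; exact ha'⟩
  obtain ⟨n, hn⟩ := IsPGroup.iff_card.1 hZ
  have hcard : Nat.card (Z.subgroupOf K) = p ^ n := by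
    rw [Nat.card_congr (Subgroup.subgroupOfEquivOfLe hZK).toEquiv, hn]
  obtain ⟨Q, hQ⟩ := Subgroup.exists_right_complement'_of_coprime (N := Z.subgroupOf K)
    (by rw [hcard]; exact Nat.Coprime.pow_left n (hp.out.coprime_iff_not_dvd.2 hidx))
  have hQp : ¬ p ∣ Nat.card Q := by rwa [← hQ.symm.index_eq_card]
  set Q' := Q.map K.subtype with hQ'
  have hQ'p : ¬ p ∣ Nat.card Q' := by rwa [hQ', card_subtype]
  have hZn' : Z ≤ normalizer (Q' : Set G) := fun z hz => mem_normalizer_of_conj_mem fun q hq => by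
    rw [← Subgroup.mem_center_iff.1 (hZc hz) q, mul_inv_cancel_right]; exact hq
  have hQZ : Q' ⊔ Z = K := by
    have h := congrArg (Subgroup.map K.subtype) hQ.sup_eq_top
    rw [Subgroup.map_sup, subgroupOf_map_subtype, inf_eq_left.2 hZK, ← MonoidHom.range_eq_map, range_subtype,
      sup_comm] at h
    exact h
  haveI hQn : Q'.Normal := by
    refine ⟨fun q hq g => mem_of_coprime hZn' hZ ?_ ?_⟩
    · rw [hQZ]
      exact (inferInstance : K.Normal).conj_mem q (hQZ ▸ mem_sup_left hq) g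
    · rw [← MulAut.conj_apply, MulEquiv.orderOf_eq]
      exact not_dvd_orderOf_of_mem hQ'p hq
  have hbot : Q' = ⊥ := le_bot_iff.1 (hO ▸ Cores.le_pPrimeCore_of_not_dvd hQn hQ'p)
  rw [hbot, bot_sup_eq] at hQZ
  exact hQZ.ge

theorem quotient_card_lt {N : Subgroup G} [N.Normal] (hN : N ≠ ⊥) : Nat.card (G ⧸ N) < Nat.card G := by
  rw [← Subgroup.index_eq_card, ← Subgroup.index_mul_card N]
  exact lt_mul_of_one_lt_right (Nat.pos_of_ne_zero Subgroup.index_ne_zero_of_finite)
    ((Subgroup.one_lt_card_iff_ne_bot _).2 hN)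

omit hp in
theorem normal_of_quotient {N : Subgroup G} [N.Normal] (hH : IsPGroup p H)
    (hcm : ∀ x ∈ H, ∀ y ∈ H, x * y = y * x) (hQ : IsClosed' p (H.map (QuotientGroup.mk' N)))
    (hfac : Factor p (G ⧸ N)) (hbot : pPrimeCore p (G ⧸ N) = ⊥) : (H ⊔ N).Normal := by
  have h := hfac (H.map (QuotientGroup.mk' N)) (hH.map _) ?_ hQ
  · rw [hbot, sup_bot_eq, normalizer_eq_top_iff] at h
    have := h.comap (QuotientGroup.mk' N)
    rwa [comap_map_eq, QuotientGroup.ker_mk'] at this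
  · rintro _ ⟨x, hx, rfl⟩ _ ⟨y, hy, rfl⟩
    rw [← map_mul, ← map_mul, hcm x hx y hy]

set_option maxHeartbeats 800000 in
/-- An element of `H` fixed by the normalizer is central modulo the core. -/
theorem isolated_central (hp2 : p ≠ 2) (hH : IsPGroup p H) (hcm : ∀ x ∈ H, ∀ y ∈ H, x * y = y * x)
    (hQ : IsClosed' p H) (hloc : Local p H) (hO : pPrimeCore p G = ⊥) (P : Sylow p G)
    (hPN : (P : Subgroup G) ≤ normalizer (H : Set G)) {a : G} (ha : a ∈ H) (haP : a ∈ (P : Subgroup G))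
    (ha1 : a ≠ 1) (hone : orb H a = {a}) : a ∈ center G := by
  classical
  haveI := Fintype.ofFinite G
  haveI := Fintype.ofFinite (IrrCharacter G)
  obtain ⟨M, hM⟩ := BlkChar.exists_isPModular p hp.out
  haveI : M.IsPrime := hM.2.1.isPrime
  set L := normalClosure (Set.range fun g : G => ⁅a, g⁆) with hL
  haveI hLn : L.Normal := normalClosure_normal
  by_cases hLb : L = ⊥
  · refine Subgroup.mem_center_iff.2 fun g => ?_
    have h : ⁅a, g⁆ ∈ L := subset_normalClosure ⟨g, rfl⟩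
    rw [hLb, mem_bot, commutatorElement_eq_one_iff_mul_comm] at h
    exact h.symm
  exfalso
  have hpL : p ∣ Nat.card L := by
    by_contra h
    exact hLb (le_bot_iff.1 (hO ▸ Cores.le_pPrimeCore_of_not_dvd hLn h))
  haveI : (L.subgroupOf (P : Subgroup G)).Normal := inferInstance
  have hne : L.subgroupOf (P : Subgroup G) ≠ ⊥ := by
    intro h
    obtain ⟨x, hx⟩ := exists_prime_orderOf_dvd_card' p hpL
    obtain ⟨Q, hQ'⟩ := (IsPGroup.of_card (n := 1) (p := p) (G := zpowers (x : G))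
      (by rw [Nat.card_zpowers, Subgroup.orderOf_coe, hx, pow_one])).exists_le_sylow
    obtain ⟨g, hg⟩ := MulAction.exists_smul_eq G Q P
    have hmem : g * x * g⁻¹ ∈ (P : Subgroup G) := by
      rw [← hg]; exact ⟨x, hQ' (mem_zpowers _), rfl⟩
    have h1 : (⟨_, hmem⟩ : (P : Subgroup G)) ∈ L.subgroupOf (P : Subgroup G) := hLn.conj_mem x x.2 g
    rw [h, mem_bot] at h1
    have h2 : g * (x : G) * g⁻¹ = 1 := congrArg Subtype.val h1
    rw [mul_inv_eq_one, mul_eq_left, OneMemClass.coe_eq_one] at h2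
    rw [h2, orderOf_one] at hx
    exact hp.out.one_lt.ne hx
  haveI : Nontrivial (P : Subgroup G) := by
    obtain ⟨x, -, hx⟩ := (Subgroup.bot_or_exists_ne_one _).resolve_left hne
    exact ⟨⟨x, 1, hx⟩⟩
  obtain ⟨⟨e, heP⟩, ⟨heL, hec⟩, he1⟩ :=
    (Subgroup.bot_or_exists_ne_one _).resolve_left (PGroup.inf_center_ne_bot (p := p) P.2 _ hne)
  have hcomm : Commute a e := congrArg Subtype.val (Subgroup.mem_center_iff.1 hec ⟨a, haP⟩)
  have himg : ∀ (i : ℕ) (g c : G), IsImg p H (a ^ i) g c → c = a ^ i := by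
    intro i g c hc
    obtain ⟨c', hc', n, hn, hnc⟩ := exists_img hH hQ (H.pow_mem ha i) g
    rw [img_unique hH hQ (H.pow_mem ha i) hc hc', ← hnc, ← conj_pow,
      Finset.mem_singleton.1 (hone ▸ mem_orb.2 ⟨n, hn, rfl⟩ : n * a * n⁻¹ ∈ ({a} : Finset G))]
  obtain ⟨k, hk⟩ : ∃ k, orderOf a = p ^ k := by
    obtain ⟨n, hn⟩ := hH ⟨a, ha⟩
    obtain ⟨k, -, hk⟩ := (Nat.dvd_prime_pow hp.out).1
      (orderOf_dvd_of_pow_eq_one (x := a) (n := p ^ n) (by simpa using congrArg Subtype.val hn))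
    exact ⟨k, hk⟩
  have hG : (Nat.card G : ℂ) ≠ 0 := Nat.cast_ne_zero.mpr Nat.card_pos.ne'
  -- powers of `a`
  have hmult : ∀ χ ∈ principalBlock M G, ∀ i j : ℕ, a ^ (i + j) ≠ 1 →
      ((χ : IrrCharacter G) : G → ℂ) (a ^ i) * (χ : G → ℂ) (a ^ j) = (χ : G → ℂ) 1 * (χ : G → ℂ) (a ^ (i + j)) := by
    intro χ hχ i j hij
    apply mul_left_cancel₀ hG
    rw [← mul_assoc, ← Brauer.irr_conj_sum χ.2 (a ^ i) (a ^ j), ← mul_assoc, mul_comm ((Nat.card G : ℂ)),
      mul_assoc]
    congr 1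
    rw [Finset.sum_congr rfl (g := fun _ => (χ : G → ℂ) (a ^ (i + j))) fun g _ => ?_, Finset.sum_const,
      Finset.card_univ, nsmul_eq_mul, ← Nat.card_eq_fintype_card]
    obtain ⟨c, hc, -⟩ := exists_img hH hQ (H.pow_mem ha i) g
    have hce := himg i g c hc
    rw [Char.isClassFunction_mul_comm (Char.irr_isClassFunction χ.2),
      value_mul hH hcm hQ hloc hM hχ (H.pow_mem ha i) hc (H.pow_mem ha j)
        (by rw [hce, ← pow_add, add_comm]; exact hij), hce, ← pow_add, add_comm]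
  have hcentral : ∀ χ ∈ principalBlock M G, ((χ : IrrCharacter G) : G → ℂ) a ≠ 0 →
      (χ : G → ℂ) (a * e) = (χ : G → ℂ) a := by
    intro χ hχ hne'
    obtain ⟨d, hd0, hd⟩ := Char.irr_one_pos χ.2
    have hcop : Nat.Coprime 2 (orderOf a) := by
      rw [hk]; exact Nat.Coprime.pow_right k ((Nat.coprime_primes Nat.prime_two hp.out).2 (Ne.symm hp2))
    have hne1 : ∀ m : ℕ, a ^ (2 ^ m) ≠ 1 := fun m e' => ha1 (orderOf_eq_one_iff.1
      (Nat.eq_one_of_dvd_coprimes (hcop.pow_left m) (orderOf_dvd_of_pow_eq_one e') dvd_rfl))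
    have hseq : ∀ m : ℕ, (χ : G → ℂ) (a ^ (2 ^ m)) * (d : ℂ) ^ (2 ^ m) = (d : ℂ) * (χ : G → ℂ) a ^ (2 ^ m) := by
      intro m
      induction m with
      | zero => simp [mul_comm]
      | succ m ihm =>
        have h := hmult χ hχ (2 ^ m) (2 ^ m) (by rw [← two_mul, ← pow_succ']; exact hne1 _)
        rw [← two_mul, ← pow_succ', hd] at h
        apply mul_left_cancel₀ (Nat.cast_ne_zero.2 hd0.ne' : (d : ℂ) ≠ 0)
        rw [show (2 : ℕ) ^ (m + 1) = 2 ^ m + 2 ^ m by ring] at h ⊢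
        rw [pow_add ((χ : G → ℂ) a), pow_add (d : ℂ)]
        linear_combination -((d : ℂ) ^ (2 ^ m) * (d : ℂ) ^ (2 ^ m)) * h +
          ((χ : G → ℂ) (a ^ 2 ^ m) * (d : ℂ) ^ 2 ^ m + (d : ℂ) * (χ : G → ℂ) a ^ 2 ^ m) * ihm
    set m := (orderOf a).totient with hm
    have hmpos : 0 < m := Nat.totient_pos.2 (orderOf_pos a)
    have hfix : a ^ (2 ^ m) = a := by
      conv_rhs => rw [← pow_one a]
      exact pow_eq_pow_iff_modEq.2 (Nat.ModEq.pow_totient hcop)
    obtain ⟨N, hN⟩ : ∃ N, 2 ^ m = N + 2 :=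
      ⟨2 ^ m - 2, by have := Nat.one_lt_pow hmpos.ne' (show 1 < 2 by norm_num); omega⟩
    have h := hseq m
    rw [hfix, hN] at h
    have hnorm : ‖(χ : G → ℂ) a‖ = ((χ : G → ℂ) 1).re := by
      rw [hd, Complex.natCast_re]
      have h' := congrArg (‖·‖) h
      simp only [norm_mul, norm_pow, Complex.norm_natCast] at h'
      have hx : (0 : ℝ) < ‖(χ : G → ℂ) a‖ := norm_pos_iff.2 hne'
      have hdd : (0 : ℝ) < (d : ℝ) := Nat.cast_pos.2 hd0
      have h'' : ‖(χ : G → ℂ) a‖ ^ (N + 1) = (d : ℝ) ^ (N + 1) := by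
        have : ‖(χ : G → ℂ) a‖ * ((d : ℝ) * (d : ℝ) ^ (N + 1)) =
            ‖(χ : G → ℂ) a‖ * ((d : ℝ) * ‖(χ : G → ℂ) a‖ ^ (N + 1)) := by
          rw [show (d : ℝ) * (d : ℝ) ^ (N + 1) = (d : ℝ) ^ (N + 2) by ring, h']; ring
        exact (mul_left_cancel₀ hdd.ne' (mul_left_cancel₀ hx.ne' this)).symm
      exact (pow_left_inj₀ hx.le hdd.le N.succ_ne_zero).1 h''
    have hchar := Char.isCharacter_of_irr χ.2
    obtain ⟨K, hKn, hK⟩ := Char.isCharacter_exists_kernel hchar
    obtain ⟨ω, hω, hmul⟩ := Char.isCharacter_mul_of_norm_eq hchar hnorm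
    have hLK : L ≤ K := by
      refine normalClosure_le_normal ?_
      rintro _ ⟨g, rfl⟩
      dsimp only
      rw [SetLike.mem_coe, hK, show ⁅a, g⁆ = a * (g * a⁻¹ * g⁻¹) by simp only [commutatorElement_def]; group,
        (hmul _).1, Char.irr_isClassFunction χ.2 a⁻¹ g, ← (hmul _).1, mul_inv_cancel]
    obtain ⟨ω', hω', hmul'⟩ := Char.isCharacter_mul_of_norm_eq hchar (g := e)
      (by rw [(hK e).1 (hLK heL), hd]; simp)
    rw [(hK e).1 (hLK heL)] at hω'
    rw [(hmul' a).2, show ω' = 1 from (mul_eq_right₀ (Char.irr_one_ne_zero χ.2)).1 hω'.symm, one_mul]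
  have hae : ∃ j, orderOf (a * e) = p ^ j := by
    obtain ⟨n, hn⟩ := P.2 ⟨a * e, mul_mem haP heP⟩
    obtain ⟨j, -, hj⟩ := (Nat.dvd_prime_pow hp.out).1
      (orderOf_dvd_of_pow_eq_one (x := a * e) (n := p ^ n) (by simpa using congrArg Subtype.val hn))
    exact ⟨j, hj⟩
  obtain ⟨j, hj⟩ := hae
  have hnc : ¬ IsConj a (a * e) := by
    intro h
    obtain ⟨g, hg⟩ := isConj_iff.1 h
    obtain ⟨c, hc, -⟩ := exists_img hH hQ ha g
    have hce := himg 1 g c (by rwa [pow_one])
    rw [pow_one] at hce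
    subst hce
    have h2 := hc.2
    rw [hg, hcomm.eq, mul_inv_cancel_right] at h2
    obtain ⟨n, hn⟩ := P.2 ⟨e, heP⟩
    obtain ⟨i, -, hi⟩ := (Nat.dvd_prime_pow hp.out).1
      (orderOf_dvd_of_pow_eq_one (x := e) (n := p ^ n) (by simpa using congrArg Subtype.val hn))
    rcases i with _ | i
    · rw [pow_zero, orderOf_eq_one_iff] at hi
      exact he1 (Subtype.ext hi)
    · exact h2 (hi ▸ dvd_pow_self p i.succ_ne_zero)
  have hzero := Brauer.principal_column_eq_zero hM hk (centralizer ({a} : Set G)) rfl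
    (1 : centralizer ({a} : Set G)) (by rw [orderOf_one]; exact hp.out.not_dvd_one)
    (g := a * e) (by rw [(Element.pPart_eq_self hp.out hj).1]; exact hnc)
  rw [finsum_mem_eq_toFinset_sum, OneMemClass.coe_one, mul_one] at hzero
  have hre := congrArg Complex.re hzero
  rw [Complex.re_sum, Complex.zero_re] at hre
  have hnn : ∀ χ ∈ (principalBlock M G).toFinset,
      0 ≤ (((χ : IrrCharacter G) : G → ℂ) a * conj ((χ : G → ℂ) (a * e))).re := by
    intro χ hχ
    by_cases h : (χ : G → ℂ) a = 0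
    · simp [h]
    · rw [hcentral χ (Set.mem_toFinset.1 hχ) h, Complex.mul_conj]
      simpa using Complex.normSq_nonneg _
  have h0 := (Finset.sum_eq_zero_iff_of_nonneg hnn).1 hre (Char.trivialIrr G)
    (Set.mem_toFinset.2 (by
      rw [Brauer.principalBlock_eq_blockOf_trivial]; exact Block.mem_blockOf_self _))
  have e1 : ((Char.trivialIrr G : IrrCharacter G) : G → ℂ) = fun _ => 1 := rfl
  rw [e1] at h0
  simp at h0

/-- A closed abelian subgroup is normal modulo the `p'`-core. -/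
theorem factor (hp2 : p ≠ 2) : ∀ (n : ℕ) (G : Type u) [Group G] [Finite G], Nat.card G = n → Factor p G := by
  intro n
  induction n using Nat.strong_induction_on with
  | _ n ih =>
  intro G _ _ hn
  subst hn
  intro H hH hcm hQ
  by_cases hO : pPrimeCore p G = ⊥
  swap
  · set O := pPrimeCore p G with hOdef
    have hOp : ¬ p ∣ Nat.card O := Cores.not_dvd_card_pPrimeCore
    have hQ' := closed_map_coprime hH hQ (QuotientGroup.mk' O) (QuotientGroup.mk'_surjective O)
      (by rwa [QuotientGroup.ker_mk'])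
    have hn' := normal_of_quotient hH hcm hQ' (ih _ (quotient_card_lt hO) (G ⧸ O) rfl)
      Cores.pPrimeCore_quotient_pPrimeCore_eq_bot
    refine eq_top_iff.2 fun g _ => ?_
    obtain ⟨k, hk, hkg⟩ := exists_normalizer_of_conj hH hOp le_normalizer_of_normal (g := g) fun x hx => by
      have := hn'.conj_mem x (mem_sup_left hx) g
      rwa [sup_comm] at this
    rw [show g = k * (k⁻¹ * g) by group]
    exact mul_mem (mem_sup_right hk) (mem_sup_left hkg)
  rw [hO, sup_bot_eq]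
  by_cases hL : normalClosure (H : Set G) ≠ ⊤
  · set L := normalClosure (H : Set G) with hLdef
    have hHL : H ≤ L := le_normalClosure
    have hlt : Nat.card L < Nat.card G :=
      lt_of_le_of_ne (Subgroup.card_le_card_group _) fun e => hL (Subgroup.eq_top_of_card_eq _ e)
    have h := ih _ hlt L rfl (H.subgroupOf L) (hH.of_equiv (subgroupOfEquivOfLe hHL).symm)
      (fun a ha b hb => Subtype.ext (hcm a ha b hb)) (closed_subgroupOf hQ hHL)
    haveI : L.Normal := normalClosure_normal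
    have hcore : pPrimeCore p L = ⊥ := by
      have := Cores.map_subtype_pPrimeCore_eq (p := p) (N := L)
      rw [hO, inf_bot_eq] at this
      exact (Subgroup.map_eq_bot_iff_of_injective _ L.subtype_injective).1 this
    rw [hcore, sup_bot_eq, normalizer_eq_top_iff] at h
    refine eq_top_iff.2 fun g _ => ?_
    have hgN : H.map (MulAut.conj g).toMonoidHom ≤ normalizer (H : Set G) := by
      rintro _ ⟨x, hx, rfl⟩
      have hgx : g * x * g⁻¹ ∈ L := Subgroup.Normal.conj_mem inferInstance x (hHL hx) g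
      exact mem_normalizer_of_conj_mem fun y hy => h.conj_mem ⟨y, hHL hy⟩ hy ⟨_, hgx⟩
    exact conj_eq_of_le hQ (IsPGroup.to_sup_of_normal_left' hH (hH.map _) hgN) le_sup_left
      fun x hx => mem_sup_right ⟨x, hx, rfl⟩
  push Not at hL
  by_cases hZ : ∀ x ∈ H, x ∈ center G → x = 1
  swap
  · push Not at hZ
    obtain ⟨x, hx, hxc, hx1⟩ := hZ
    set Z := H ⊓ center G with hZdef
    have hZp : IsPGroup p Z := hH.to_le inf_le_left
    haveI hZn : Z.Normal := ⟨fun a ha c => by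
      rw [Subgroup.mem_center_iff.1 ha.2 c, mul_inv_cancel_right]; exact ha⟩
    have hZb : Z ≠ ⊥ := fun e => hx1 (by rw [← mem_bot, ← e]; exact ⟨hx, hxc⟩)
    have hbot : pPrimeCore p (G ⧸ Z) = ⊥ := by
      set K := (pPrimeCore p (G ⧸ Z)).comap (QuotientGroup.mk' Z) with hKdef
      have hZK : Z ≤ K := fun z hz => by
        show ((z : G) : G ⧸ Z) ∈ pPrimeCore p (G ⧸ Z)
        rw [(QuotientGroup.eq_one_iff z).2 hz]
        exact one_mem _
      have hidx : ¬ p ∣ (Z.subgroupOf K).index := by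
        have h4 : Nat.card K = _ := Cores.card_comap_mk_eq Z (pPrimeCore p (G ⧸ Z))
        have h5 := Subgroup.index_mul_card (Z.subgroupOf K)
        rw [Nat.card_congr (Subgroup.subgroupOfEquivOfLe hZK).toEquiv, h4] at h5
        have h7 : (Z.subgroupOf K).index = Nat.card (pPrimeCore p (G ⧸ Z)) := by
          apply Nat.eq_of_mul_eq_mul_right (Nat.card_pos : 0 < Nat.card Z)
          linarith
        rw [h7]
        exact Cores.not_dvd_card_pPrimeCore
      refine eq_bot_iff.2 fun q hq => ?_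
      obtain ⟨y, rfl⟩ := QuotientGroup.mk'_surjective Z q
      rw [mem_bot]
      exact (QuotientGroup.eq_one_iff y).2 (eq_of_central hO hZp inf_le_right hZK hidx hq)
    have hQ' := closed_map_central hH hQ (QuotientGroup.mk' Z) (QuotientGroup.mk'_surjective Z)
      (by rw [QuotientGroup.ker_mk']; exact inf_le_left)
    have hn' := normal_of_quotient hH hcm hQ' (ih _ (quotient_card_lt hZb) (G ⧸ Z) rfl) hbot
    rw [sup_eq_left.2 (inf_le_left : Z ≤ H)] at hn'
    rw [normalizer_eq_top_iff]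
    exact hn'
  by_cases hH1 : H = ⊥
  · subst hH1
    rw [normalizer_eq_top_iff]
    infer_instance
  exfalso
  obtain ⟨P, hHP⟩ := hH.exists_le_sylow
  have hPN : (P : Subgroup G) ≤ normalizer (H : Set G) := fun g hg =>
    conj_eq_of_le hQ P.2 hHP fun x hx => mul_mem (mul_mem hg (hHP hx)) (inv_mem hg)
  haveI : (H.subgroupOf (P : Subgroup G)).Normal := normal_subgroupOf_of_le_normalizer hPN
  haveI : Nontrivial (P : Subgroup G) :=
    (nontrivial_iff_ne_bot _).2 fun e => hH1 (le_bot_iff.1 (hHP.trans e.le))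
  have hne : H.subgroupOf (P : Subgroup G) ≠ ⊥ := fun h => hH1 (by
    rw [← map_subgroupOf_eq_of_le hHP, h, Subgroup.map_bot])
  obtain ⟨⟨a, haP⟩, ⟨haH, hac⟩, ha1⟩ :=
    (Subgroup.bot_or_exists_ne_one _).resolve_left (PGroup.inf_center_ne_bot (p := p) P.2 _ hne)
  have ha : a ∈ H := haH
  have ha1' : a ≠ 1 := fun e => ha1 (Subtype.ext e)
  have hPa : (P : Subgroup G) ≤ centralizer ({a} : Set G) := fun y hy =>
    mem_centralizer_singleton_iff.2 (congrArg Subtype.val (Subgroup.mem_center_iff.1 hac ⟨y, hy⟩))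
  have hloc : Local p H := local_of_factor hH hcm hQ hZ fun C hC => ih _
    (lt_of_le_of_ne (Subgroup.card_le_card_group _) fun e => hC (Subgroup.eq_top_of_card_eq _ e)) C rfl
  have hone := orbit_card_eq_one hp2 hH hcm hQ hloc hL ha ha1' (not_dvd_card_orb P hPN hPa)
  obtain ⟨a', ha'⟩ := Finset.card_eq_one.1 hone
  have e2 : a = a' := Finset.mem_singleton.1 (ha' ▸ self_mem_orb (H := H) (a := a))
  subst e2
  exact ha1' (hZ a ha (isolated_central hp2 hH hcm hQ hloc hO P hPN ha haP ha1' ha'))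

end Cfsg.Agent.LAE62.PClosed
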