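import Cfsg.Agent.LAE62.PClosed.Basic
import Cfsg.Agent.Brauer.Sections
import Cfsg.Agent.Cores.Basic
import Cfsg.Prelude.Def_Local

/-!
Images of conjugates, sections, and principal block values.
-/

set_option autoImplicit false

open Subgroup

namespace Cfsg.Agent.LAE62.PClosed

open Cfsg

universe u

variable {G : Type u} [Group G] [Finite G] {H : Subgroup G} {p : ℕ} [hp : Fact p.Prime]

/-- `c` is the element of `H` congruent to the conjugate of `a` by `g`. -/
def IsImg (p : ℕ) (H : Subgroup G) (a g c : G) : Prop := c ∈ H ∧ ¬ p ∣ orderOf (g * a * g⁻¹ * c⁻¹)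

theorem exists_img (hH : IsPGroup p H) (hQ : IsClosed' p H) {a : G} (ha : a ∈ H) (g : G) :
    ∃ c, IsImg p H a g c ∧ ∃ n ∈ normalizer (H : Set G), n * a * n⁻¹ = c := by
  obtain ⟨K, hK, hn, hg, -⟩ := hQ g
  obtain ⟨k, hk, hkg⟩ := exists_normalizer_of_conj hH hK hn hg
  set c := k⁻¹ * g * a * (k⁻¹ * g)⁻¹ with hc
  have hcH : c ∈ H := (mem_normalizer_iff.1 hkg a).1 ha
  refine ⟨c, ⟨hcH, not_dvd_orderOf_of_mem hK ?_⟩, k⁻¹ * g, hkg, rfl⟩
  rw [show g * a * g⁻¹ * c⁻¹ = k * (c * k⁻¹ * c⁻¹) by rw [hc]; group]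
  exact K.mul_mem hk ((mem_normalizer_iff.1 (hn hcH) k⁻¹).1 (K.inv_mem hk))

omit [Finite G] in
theorem img_unique (hH : IsPGroup p H) (hQ : IsClosed' p H) {a g c c' : G} (ha : a ∈ H) (h : IsImg p H a g c)
    (h' : IsImg p H a g c') : c = c' := by
  obtain ⟨K, hK, hn, hg, -⟩ := hQ g
  have m1 := mem_of_coprime hn hH ((K ⊔ H).mul_mem (hg a ha) (mem_sup_right (H.inv_mem h.1))) h.2
  have m2 := mem_of_coprime hn hH ((K ⊔ H).mul_mem (hg a ha) (mem_sup_right (H.inv_mem h'.1))) h'.2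
  have m3 : c * c'⁻¹ ∈ K := by
    rw [show c * c'⁻¹ = (g * a * g⁻¹ * c⁻¹)⁻¹ * (g * a * g⁻¹ * c'⁻¹) by group]
    exact K.mul_mem (K.inv_mem m1) m2
  exact mul_inv_eq_one.1 (eq_one_of_mem hK hH m3 (H.mul_mem h.1 (H.inv_mem h'.1)))

omit [Finite G] hp in
theorem IsImg.conj {a g c m : G} (h : IsImg p H a g c) (hm : m ∈ normalizer (H : Set G)) :
    IsImg p H a (m * g) (m * c * m⁻¹) := by
  refine ⟨(mem_normalizer_iff.1 hm c).1 h.1, ?_⟩
  rw [show m * g * a * (m * g)⁻¹ * (m * c * m⁻¹)⁻¹ = m * (g * a * g⁻¹ * c⁻¹) * m⁻¹ by group,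
    ← MulAut.conj_apply, MulEquiv.orderOf_eq]
  exact h.2

/-- The orbit of an element under the normalizer. -/
noncomputable def orb (H : Subgroup G) (a : G) : Finset G :=
  (Set.toFinite {x : G | ∃ n ∈ normalizer (H : Set G), n * a * n⁻¹ = x}).toFinset

omit hp in
theorem mem_orb {a x : G} : x ∈ orb H a ↔ ∃ n ∈ normalizer (H : Set G), n * a * n⁻¹ = x := Set.Finite.mem_toFinset _

omit hp in
theorem orb_le {a x : G} (ha : a ∈ H) (hx : x ∈ orb H a) : x ∈ H := by
  obtain ⟨n, hn, rfl⟩ := mem_orb.1 hx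
  exact (mem_normalizer_iff.1 hn a).1 ha

omit hp in
theorem self_mem_orb {a : G} : a ∈ orb H a := mem_orb.2 ⟨1, one_mem _, by group⟩

omit hp in
theorem ne_one_of_mem_orb {a x : G} (ha : a ≠ 1) (hx : x ∈ orb H a) : x ≠ 1 := by
  obtain ⟨n, -, rfl⟩ := mem_orb.1 hx
  intro h
  rw [mul_inv_eq_one, mul_eq_left] at h
  exact ha h

omit hp in
/-- The orbit has size the index of the stabilizer. -/
theorem card_orb_eq (H : Subgroup G) (a : G) :
    (orb H a).card = (centralizer ({a} : Set G)).relIndex (normalizer (H : Set G)) := by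
  set N := normalizer (H : Set G) with hN
  rw [Subgroup.relIndex, Subgroup.index_eq_card, ← Nat.card_eq_finsetCard]
  refine (Nat.card_congr (Equiv.ofBijective (fun q => Quotient.liftOn' q
    (fun n : N => (⟨n * a * (n : G)⁻¹, mem_orb.2 ⟨n, n.2, rfl⟩⟩ : orb H a)) ?_) ⟨?_, ?_⟩)).symm
  · intro n m h
    rw [QuotientGroup.leftRel_apply, mem_subgroupOf, mem_centralizer_singleton_iff] at h
    refine Subtype.ext ?_
    show (n : G) * a * (n : G)⁻¹ = (m : G) * a * (m : G)⁻¹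
    have h' : (n : G)⁻¹ * m * a = a * ((n : G)⁻¹ * m) := h
    calc (n : G) * a * (n : G)⁻¹ = (n : G) * (a * ((n : G)⁻¹ * m)) * (m : G)⁻¹ := by group
      _ = (n : G) * ((n : G)⁻¹ * m * a) * (m : G)⁻¹ := by rw [h']
      _ = _ := by group
  · intro q₁ q₂
    induction q₁ using Quotient.inductionOn' with | _ n =>
    induction q₂ using Quotient.inductionOn' with | _ m =>
    intro h
    have h' : (n : G) * a * (n : G)⁻¹ = (m : G) * a * (m : G)⁻¹ := congrArg Subtype.val h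
    refine Quotient.sound' ?_
    rw [QuotientGroup.leftRel_apply, mem_subgroupOf, mem_centralizer_singleton_iff]
    show (n : G)⁻¹ * m * a = a * ((n : G)⁻¹ * m)
    calc (n : G)⁻¹ * m * a = (n : G)⁻¹ * ((m : G) * a * (m : G)⁻¹) * m := by group
      _ = (n : G)⁻¹ * ((n : G) * a * (n : G)⁻¹) * m := by rw [h']
      _ = _ := by group
  · rintro ⟨x, hx⟩
    obtain ⟨n, hn, rfl⟩ := mem_orb.1 hx
    exact ⟨Quotient.mk'' ⟨n, hn⟩, rfl⟩

theorem not_dvd_card_orb (P : Sylow p G) (hPN : (P : Subgroup G) ≤ normalizer (H : Set G)) {a : G}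
    (hPa : (P : Subgroup G) ≤ centralizer ({a} : Set G)) : ¬ p ∣ (orb H a).card := by
  rw [card_orb_eq]
  have h4 := relIndex_mul_relIndex (P : Subgroup G) (centralizer ({a} : Set G) ⊓ normalizer (H : Set G))
    (normalizer (H : Set G)) (le_inf hPa hPN) inf_le_right
  have h5 : (centralizer ({a} : Set G) ⊓ normalizer (H : Set G)).relIndex (normalizer (H : Set G)) ∣
      (P : Subgroup G).index :=
    (dvd_mul_left _ _).trans (h4 ▸ relIndex_dvd_index_of_le hPN)
  rw [inf_relIndex_right] at h5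
  exact fun h => P.not_dvd_index (h.trans h5)

/-! ### The section of a `p`-element -/

theorem exists_pow_fix {K : Subgroup G} (hK : ¬ p ∣ Nat.card K) {u : G} {n : ℕ} (hu : u ^ p ^ n = 1) :
    ∃ m : ℕ, u ^ m = u ∧ ∀ v ∈ K, v ^ m = 1 := by
  have hcop : (Nat.card K).Coprime (orderOf u) :=
    ((hp.out.coprime_iff_not_dvd.2 hK).symm.pow_right n).coprime_dvd_right (orderOf_dvd_of_pow_eq_one hu)
  obtain ⟨m, hm⟩ := exists_pow_eq_self_of_coprime hcop
  refine ⟨Nat.card K * m, by rw [pow_mul]; exact hm, fun v hv => ?_⟩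
  exact orderOf_dvd_iff_pow_eq_one.1 ((Subgroup.orderOf_dvd_natCard K hv).trans (dvd_mul_right _ _))

/-- The centralizer of `u` in `K`. -/
abbrev cK {G : Type u} [Group G] (K : Subgroup G) (x : G) : Subgroup G := K ⊓ centralizer ({x} : Set G)

/-- The fibres of `(x, v) ↦ x v u x⁻¹ u⁻¹`. -/
theorem fiber_card {K : Subgroup G} (hK : ¬ p ∣ Nat.card K) {u : G} {n : ℕ} (hu : u ^ p ^ n = 1)
    (huK : u ∈ normalizer (K : Set G)) [Fintype K] [Fintype (cK K u)]
    [DecidableEq G] (k : G) (hk : k ∈ K) :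
    (Finset.univ.filter fun xv : K × (cK K u) =>
      (xv.1 : G) * xv.2 * u * (xv.1 : G)⁻¹ = k * u).card = Nat.card (cK K u) := by
  classical
  obtain ⟨m, hum, hKm⟩ := exists_pow_fix hK hu
  have hcomm : ∀ v : (cK K u), Commute (v : G) u := fun v => mem_centralizer_singleton_iff.1 v.2.2
  have hpw : ∀ v : (cK K u), ((v : G) * u) ^ m = u := fun v => by
    rw [(hcomm v).mul_pow, hum, hKm _ v.2.1, one_mul]
  -- each fibre is at most as large as `(cK K u)`
  have hle : ∀ y : G, (Finset.univ.filter fun xv : K × (cK K u) =>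
      (xv.1 : G) * xv.2 * u * (xv.1 : G)⁻¹ = y).card ≤ Nat.card (cK K u) := by
    intro y
    by_cases hne : (Finset.univ.filter fun xv : K × (cK K u) =>
      (xv.1 : G) * xv.2 * u * (xv.1 : G)⁻¹ = y).Nonempty
    swap
    · rw [Finset.not_nonempty_iff_eq_empty.1 hne]; simp
    obtain ⟨⟨x₀, v₀⟩, h₀⟩ := hne
    simp only [Finset.mem_filter, Finset.mem_univ, true_and] at h₀
    rw [Nat.card_eq_fintype_card, ← Finset.card_univ]
    have hC : ∀ xv : K × (cK K u), (xv.1 : G) * xv.2 * u * (xv.1 : G)⁻¹ = y → (x₀ : G)⁻¹ * xv.1 ∈ (cK K u) := by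
      rintro ⟨x, v⟩ h
      refine ⟨K.mul_mem (K.inv_mem x₀.2) x.2, mem_centralizer_singleton_iff.2 ?_⟩
      have e1 : (x : G) * u * (x : G)⁻¹ = y ^ m := by
        rw [← h, show (x : G) * v * u = x * (v * u) by group, conj_pow, hpw]
      have e2 : (x₀ : G) * u * (x₀ : G)⁻¹ = y ^ m := by
        rw [← h₀, show (x₀ : G) * v₀ * u = x₀ * (v₀ * u) by group, conj_pow, hpw]
      calc (x₀ : G)⁻¹ * x * u = (x₀ : G)⁻¹ * ((x : G) * u * (x : G)⁻¹) * x := by group
        _ = (x₀ : G)⁻¹ * ((x₀ : G) * u * (x₀ : G)⁻¹) * x := by rw [e1, e2]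
        _ = _ := by group
    refine Finset.card_le_card_of_injOn
      (fun xv => if h : (x₀ : G)⁻¹ * xv.1 ∈ (cK K u) then ⟨_, h⟩ else 1) (fun _ _ => Finset.mem_univ _) ?_
    rintro ⟨x, v⟩ hxv ⟨x', v'⟩ hxv' he
    dsimp only at he
    simp only [Finset.coe_filter, Finset.mem_univ, true_and, Set.mem_setOf_eq] at hxv hxv'
    rw [dif_pos (hC ⟨x, v⟩ hxv), dif_pos (hC ⟨x', v'⟩ hxv')] at he
    have hx : x = x' := Subtype.ext (mul_left_cancel (congrArg Subtype.val he))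
    subst hx
    have hv : (v : G) = v' := by
      have := hxv.trans hxv'.symm
      exact mul_left_cancel (mul_right_cancel (mul_right_cancel this))
    exact Prod.ext rfl (Subtype.ext hv)
  -- and the images lie in the coset of `K`
  refine le_antisymm (hle _) ?_
  by_contra hlt
  push Not at hlt
  set s := (Finset.univ : Finset K).image fun k' : K => (k' : G) * u with hs
  have hmaps : ∀ xv ∈ (Finset.univ : Finset (K × (cK K u))),
      (fun xv : K × (cK K u) => (xv.1 : G) * xv.2 * u * (xv.1 : G)⁻¹) xv ∈ s := by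
    rintro ⟨x, v⟩ -
    refine Finset.mem_image.2 ⟨⟨(x : G) * v * (u * (x : G)⁻¹ * u⁻¹),
      K.mul_mem (K.mul_mem x.2 v.2.1) ((mem_normalizer_iff.1 huK _).1 (K.inv_mem x.2))⟩, Finset.mem_univ _, ?_⟩
    show (x : G) * v * (u * (x : G)⁻¹ * u⁻¹) * u = (x : G) * v * u * (x : G)⁻¹
    group
  have hsum := Finset.card_eq_sum_card_fiberwise hmaps
  have hks : k * u ∈ s := Finset.mem_image.2 ⟨⟨k, hk⟩, Finset.mem_univ _, rfl⟩
  have hlt' : ∑ y ∈ s, (Finset.univ.filter fun xv : K × (cK K u) =>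
      (xv.1 : G) * xv.2 * u * (xv.1 : G)⁻¹ = y).card < s.card * Nat.card (cK K u) := by
    rw [← smul_eq_mul, ← Finset.sum_const]
    exact Finset.sum_lt_sum (fun y _ => hle y) ⟨_, hks, hlt⟩
  rw [← hsum, Finset.card_univ, Fintype.card_prod, ← Nat.card_eq_fintype_card (α := (cK K u)), hs,
    Finset.card_image_of_injective _ (fun a b h => Subtype.ext (mul_right_cancel h)), Finset.card_univ] at hlt'
  exact lt_irrefl _ hlt'

/-- An element of the coset `K u` is conjugate to one commuting with `u`. -/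
theorem exists_conj_commute {K : Subgroup G} (hK : ¬ p ∣ Nat.card K) {u : G} {n : ℕ} (hu : u ^ p ^ n = 1)
    (huK : u ∈ normalizer (K : Set G)) {k : G} (hk : k ∈ K) :
    ∃ x ∈ K, ∃ v ∈ K, Commute v u ∧ x * (v * u) * x⁻¹ = k * u := by
  classical
  haveI := Fintype.ofFinite G
  haveI := Fintype.ofFinite K
  haveI := Fintype.ofFinite (cK K u)
  have h := fiber_card hK hu huK k hk
  obtain ⟨⟨x, v⟩, hxv⟩ := Finset.card_pos.1 (h ▸ Nat.card_pos)
  simp only [Finset.mem_filter, Finset.mem_univ, true_and] at hxv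
  exact ⟨x, x.2, v, v.2.1, mem_centralizer_singleton_iff.1 v.2.2, by rw [← hxv]; group⟩

/-- The sum of a class function over a coset of a `p'`-subgroup. -/
theorem sum_coset {K : Subgroup G} (hK : ¬ p ∣ Nat.card K) {u : G} {n : ℕ} (hu : u ^ p ^ n = 1)
    (huK : u ∈ normalizer (K : Set G)) [Fintype K] [Fintype (cK K u)]
    (F : G → ℂ) (hF : ∀ g h : G, F (h * g * h⁻¹) = F g) :
    (Nat.card (cK K u) : ℂ) * ∑ k : K, F (k * u) =
      (Nat.card K : ℂ) * ∑ v : (cK K u), F (v * u) := by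
  classical
  have h1 : ∑ xv : K × (cK K u), F ((xv.1 : G) * xv.2 * u * (xv.1 : G)⁻¹) = (Nat.card K : ℂ) * ∑ v : (cK K u), F (v * u) := by
    rw [Fintype.sum_prod_type, Finset.sum_congr rfl (g := fun _ => ∑ v : (cK K u), F (v * u)) fun x _ =>
      Finset.sum_congr rfl fun v _ => by rw [show (x : G) * v * u = x * (v * u) by group, hF],
      Finset.sum_const, Finset.card_univ, nsmul_eq_mul, Nat.card_eq_fintype_card]
  rw [← h1, Finset.mul_sum]
  rw [← Finset.sum_fiberwise_of_maps_to (s := (Finset.univ : Finset (K × (cK K u)))) (t := (Finset.univ : Finset K))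
    (g := fun xv : K × (cK K u) => (⟨(xv.1 : G) * xv.2 * (u * (xv.1 : G)⁻¹ * u⁻¹),
      K.mul_mem (K.mul_mem xv.1.2 xv.2.2.1) ((mem_normalizer_iff.1 huK _).1 (K.inv_mem xv.1.2))⟩ : K))
    (fun _ _ => Finset.mem_univ _)]
  refine Finset.sum_congr rfl fun k _ => ?_
  have hfib := fiber_card hK hu huK (k : G) k.2
  rw [← hfib]
  have hset : (Finset.univ.filter fun xv : K × (cK K u) => (xv.1 : G) * xv.2 * u * (xv.1 : G)⁻¹ = k * u) =
      Finset.univ.filter fun xv : K × (cK K u) => (⟨(xv.1 : G) * xv.2 * (u * (xv.1 : G)⁻¹ * u⁻¹),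
        K.mul_mem (K.mul_mem xv.1.2 xv.2.2.1) ((mem_normalizer_iff.1 huK _).1 (K.inv_mem xv.1.2))⟩ : K) = k := by
    refine Finset.filter_congr fun xv _ => ?_
    rw [Subtype.ext_iff]
    show _ ↔ (xv.1 : G) * xv.2 * (u * (xv.1 : G)⁻¹ * u⁻¹) = k
    constructor
    · intro h
      calc (xv.1 : G) * xv.2 * (u * (xv.1 : G)⁻¹ * u⁻¹) = (xv.1 : G) * xv.2 * u * (xv.1 : G)⁻¹ * u⁻¹ := by group
        _ = k := by rw [h, mul_inv_cancel_right]
    · intro h
      rw [← h]; group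
  rw [← hset, Finset.sum_congr rfl (g := fun _ => F ((k : G) * u)) fun xv hxv => by
    rw [(Finset.mem_filter.1 hxv).2], Finset.sum_const, nsmul_eq_mul]

/-! ### Principal block values -/

/-- A fixed-point-free `p'`-subgroup centralizing an element of `H` lies in its core. -/
def Local (p : ℕ) (H : Subgroup G) : Prop :=
  ∀ u ∈ H, u ≠ 1 → ∀ W : Subgroup G, ¬ p ∣ Nat.card W → H ≤ normalizer (W : Set G) →
    W ≤ centralizer ({u} : Set G) → (∀ w ∈ W, (∀ x ∈ H, w * x = x * w) → w = 1) →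
      W ≤ centralizerPPrimeCore p u

/-- Principal block characters are constant on `u O_{p'}(C(u))`. -/
theorem sectionConst {M : Ideal AlgInt} (hM : IsPModular p M) {χ : IrrCharacter G}
    (hχ : χ ∈ principalBlock M G) {u : G} {n : ℕ} (hu : u ^ p ^ n = 1) {v : G}
    (hv : v ∈ centralizerPPrimeCore p u) : (χ : G → ℂ) (u * v) = (χ : G → ℂ) u := by
  haveI := Fintype.ofFinite G
  obtain ⟨k, -, hk⟩ := (Nat.dvd_prime_pow hp.out).1 (orderOf_dvd_of_pow_eq_one hu)
  refine Brauer.principalBlock_apply_mul hM (u := u) hk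
    (centralizerPPrimeCore p u) (Subgroup.map_subtype_le _) ?_ ?_ hχ hv
  · rintro c hc a ⟨a', ha', rfl⟩
    exact ⟨⟨c, hc⟩ * a' * (⟨c, hc⟩ : centralizer ({u} : Set G))⁻¹,
      (inferInstance : (pPrimeCore p (centralizer ({u} : Set G))).Normal).conj_mem a' ha' ⟨c, hc⟩, rfl⟩
  · rw [centralizerPPrimeCore, Subgroup.card_map_of_injective (Subgroup.subtype_injective _)]
    exact Cores.not_dvd_card_pPrimeCore

theorem value_coset (hH : IsPGroup p H) (hcm : ∀ x ∈ H, ∀ y ∈ H, x * y = y * x) (hloc : Local p H)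
    {M : Ideal AlgInt} (hM : IsPModular p M) {χ : IrrCharacter G} (hχ : χ ∈ principalBlock M G)
    {K : Subgroup G} (hK : ¬ p ∣ Nat.card K) (hn : H ≤ normalizer (K : Set G))
    (hfix : ∀ k ∈ K, (∀ x ∈ H, k * x = x * k) → k = 1) {u : G} (huH : u ∈ H) (hu1 : u ≠ 1) {k : G} (hk : k ∈ K) :
    (χ : G → ℂ) (k * u) = (χ : G → ℂ) u := by
  have hcl := Char.irr_isClassFunction χ.2
  obtain ⟨n, hn'⟩ := hH ⟨u, huH⟩
  have hun : u ^ p ^ n = 1 := by simpa using congrArg Subtype.val hn'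
  obtain ⟨y, -, v, hv, hvu, hyv⟩ := exists_conj_commute hK hun (hn huH) hk
  set W := K ⊓ centralizer ({u} : Set G) with hW
  have hWn : H ≤ normalizer (W : Set G) := fun h hh => mem_normalizer_of_conj_mem fun w hw => by
    refine ⟨(mem_normalizer_iff.1 (hn hh) w).1 hw.1, mem_centralizer_singleton_iff.2 ?_⟩
    have e := hcm h hh u huH
    have e' : w * u = u * w := mem_centralizer_singleton_iff.1 hw.2
    calc h * w * h⁻¹ * u = h * (w * (h⁻¹ * u)) := by group
      _ = h * (w * (u * h⁻¹)) := by rw [hcm _ (H.inv_mem hh) u huH]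
      _ = h * (w * u) * h⁻¹ := by group
      _ = (h * u) * w * h⁻¹ := by rw [e']; group
      _ = u * (h * w * h⁻¹) := by rw [e]; group
  have hvW : v ∈ centralizerPPrimeCore p u :=
    hloc u huH hu1 W (fun hd => hK (hd.trans (card_dvd_of_le inf_le_left))) hWn inf_le_right
      (fun w hw hwc => hfix w hw.1 hwc) ⟨hv, mem_centralizer_singleton_iff.2 hvu⟩
  rw [← hyv, hcl, hvu.eq, sectionConst hM hχ hun hvW]

theorem value_mul (hH : IsPGroup p H) (hcm : ∀ x ∈ H, ∀ y ∈ H, x * y = y * x) (hQ : IsClosed' p H)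
    (hloc : Local p H) {M : Ideal AlgInt} (hM : IsPModular p M) {χ : IrrCharacter G} (hχ : χ ∈ principalBlock M G)
    {a g c x : G} (ha : a ∈ H) (hc : IsImg p H a g c) (hx : x ∈ H) (hxc : x * c ≠ 1) :
    (χ : G → ℂ) (x * (g * a * g⁻¹)) = (χ : G → ℂ) (x * c) := by
  obtain ⟨K, hK, hn, hg, hfix⟩ := hQ g
  have hm : g * a * g⁻¹ * c⁻¹ ∈ K :=
    mem_of_coprime hn hH ((K ⊔ H).mul_mem (hg a ha) (mem_sup_right (H.inv_mem hc.1))) hc.2
  rw [show x * (g * a * g⁻¹) = x * (g * a * g⁻¹ * c⁻¹) * x⁻¹ * (x * c) by group]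
  exact value_coset hH hcm hloc hM hχ hK hn hfix (H.mul_mem hx hc.1) hxc
    ((mem_normalizer_iff.1 (hn hx) _).1 hm)

end Cfsg.Agent.LAE62.PClosed
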